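import Mathlib

/-!
Alternating forms invariant under `1 + N` in characteristic two: normalisation of generators.
-/

set_option autoImplicit false

namespace H64.Wall2

open Module Finset

variable {F V : Type*} [Field F] [AddCommGroup V] [Module F V]

/-- An alternating form in characteristic two invariant under `1 + N`. -/
structure St (B : LinearMap.BilinForm F V) (N : End F V) : Prop where
  two : (2 : F) = 0
  alt : ∀ v, B v v = 0
  inv : ∀ v w, B (N v) w + B v (N w) + B (N v) (N w) = 0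

/-- The quadratic invariants. -/
def qf (B : LinearMap.BilinForm F V) (N : End F V) (j : ℕ) (v : V) : F :=
  B ((N ^ j) v) ((N ^ (j + 1)) v)

variable {B : LinearMap.BilinForm F V} {N : End F V}

theorem pp (i j : ℕ) (v : V) : (N ^ i) ((N ^ j) v) = (N ^ (i + j)) v := by
  rw [pow_add, End.mul_apply]

theorem p1 (j : ℕ) (v : V) : N ((N ^ j) v) = (N ^ (j + 1)) v := by
  rw [pow_succ', End.mul_apply]

theorem p2 (j : ℕ) (v : V) : (N ^ j) (N v) = (N ^ (j + 1)) v := by
  rw [pow_succ, End.mul_apply]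

theorem pow_zero_of_le {a b : ℕ} {v : V} (h : (N ^ a) v = 0) (hab : a ≤ b) : (N ^ b) v = 0 := by
  obtain ⟨c, rfl⟩ := Nat.exists_eq_add_of_le' hab
  rw [← pp, h, map_zero]

theorem St.symm (h : St B N) (v w : V) : B v w = B w v := by
  have := h.alt (v + w)
  simp only [map_add, LinearMap.add_apply, h.alt] at this
  linear_combination this - B w v * h.two

theorem St.orth0 (h : St B N) (i : ℕ) : ∀ {w : V}, (N ^ i) w = 0 → ∀ v, B ((N ^ i) v) w = 0 := by
  induction i with
  | zero => intro w hw v; simp [show w = 0 from hw]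
  | succ i ih =>
    intro w hw v
    have h1 := h.inv ((N ^ i) v) w
    rw [← p2] at hw
    rw [ih hw, p1, ← p2 i v, ih hw] at h1
    simpa [p2] using h1

theorem St.orth (h : St B N) {a i j : ℕ} {w : V} (hw : (N ^ a) w = 0) (hij : a ≤ i + j) (v : V) :
    B ((N ^ i) v) ((N ^ j) w) = 0 := h.orth0 i (by rw [pp, pow_zero_of_le hw hij]) v

theorem St.orth' (h : St B N) {a i j : ℕ} {v : V} (hv : (N ^ a) v = 0) (hij : a ≤ i + j) (w : V) :
    B ((N ^ i) v) ((N ^ j) w) = 0 := (h.symm _ _).trans (h.orth hv (by omega) w)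

theorem St.top (h : St B N) {b : ℕ} {w : V} (hw : (N ^ (b + 1)) w = 0) (v : V) (i : ℕ) :
    ∀ j, i + j = b → B ((N ^ i) v) ((N ^ j) w) = B v ((N ^ b) w) := by
  induction i with
  | zero => rintro j rfl; simp
  | succ i ih =>
    intro j hj
    have h1 := h.inv ((N ^ i) v) ((N ^ j) w)
    rw [p1, p1, ih (j + 1) (by omega), h.orth hw (i := i + 1) (j := j + 1) (by omega)] at h1
    linear_combination h1 - B v ((N ^ b) w) * h.two

theorem St.top_symm (h : St B N) {b : ℕ} {w : V} (hw : (N ^ (b + 1)) w = 0) (v : V) :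
    B w ((N ^ b) v) = B v ((N ^ b) w) := by
  simpa using (h.symm _ _).trans (h.top hw v b 0 rfl)

theorem St.qf_add (h : St B N) (j : ℕ) (v w : V) : qf B N j (v + w) =
    qf B N j v + qf B N j w + B ((N ^ (j + 1)) v) ((N ^ (j + 1)) w) := by
  have h1 := h.inv ((N ^ j) v) ((N ^ j) w)
  simp only [qf, map_add, LinearMap.add_apply, p1] at h1 ⊢
  rw [h.symm ((N ^ j) w)]
  linear_combination h1 - B ((N ^ (j + 1)) v) ((N ^ (j + 1)) w) * h.two

theorem qf_smul (j : ℕ) (c : F) (v : V) : qf B N j (c • v) = c ^ 2 * qf B N j v := by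
  simp only [qf, map_smul, LinearMap.smul_apply, smul_eq_mul]; ring

theorem qf_pow (j i : ℕ) (v : V) : qf B N j ((N ^ i) v) = qf B N (j + i) v := by
  simp only [qf, pp, add_right_comm]

theorem St.qf_op (h : St B N) (j s : ℕ) (c : F) (v w : V) : qf B N j (v + c • (N ^ s) w) =
    qf B N j v + c ^ 2 * qf B N (j + s) w + c * B ((N ^ (j + 1)) v) ((N ^ (j + 1 + s)) w) := by
  rw [h.qf_add, qf_smul, qf_pow, map_smul, map_smul, pp, smul_eq_mul]

theorem St.qf_zero (h : St B N) {a j : ℕ} {v : V} (hv : (N ^ a) v = 0) (hj : a ≤ 2 * j + 1) :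
    qf B N j v = 0 := h.orth hv (by omega) v

theorem St.qf_top (h : St B N) {j : ℕ} {v : V} (hv : (N ^ (2 * j + 1 + 1)) v = 0) :
    qf B N j v = B v ((N ^ (2 * j + 1)) v) := h.top hv v j _ (by omega)

variable {W : Submodule F V}

theorem op_mem (hN : ∀ v ∈ W, N v ∈ W) {v w : V} (hv : v ∈ W) (hw : w ∈ W) (c : F) (s : ℕ) :
    v + c • (N ^ s) w ∈ W :=
  W.add_mem hv (W.smul_mem c (End.pow_apply_mem_of_forall_mem s hN w hw))

theorem St.norm2 (h : St B N) (hN : ∀ v ∈ W, N v ∈ W) {b : ℕ} (hW : ∀ v ∈ W, (N ^ (b + 1)) v = 0)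
    (halt : ∀ v ∈ W, B v ((N ^ b) v) = 0) {x y : V} (hx : x ∈ W) (hy : y ∈ W)
    (hxy : B x ((N ^ b) y) = 1) : ∃ y' ∈ W, (∀ i, B x ((N ^ i) y') = if i = b then 1 else 0) ∧
      ∀ j, qf B N j y' = if 2 * j + 2 = b then qf B N j y else 0 := by
  have h1 : ∀ v ∈ W, ∀ i j, b ≤ i + j → B ((N ^ i) v) ((N ^ j) v) = 0 := fun v hv i j hij => by
    rcases hij.eq_or_lt with e | e
    · rw [h.top (hW v hv) v i j e.symm, halt v hv]
    · exact h.orth (hW v hv) e v
  have h2 : ∀ v ∈ W, ∀ j, b ≤ 2 * j + 1 → qf B N j v = 0 := fun v hv j hj =>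
    h1 v hv _ _ (by omega)
  suffices ∀ d, ∃ y' ∈ W, (∀ i, b ≤ i + d → B x ((N ^ i) y') = if i = b then 1 else 0) ∧
      ∀ j, b ≤ 2 * j + 2 + d → qf B N j y' = if 2 * j + 2 = b then qf B N j y else 0 by
    obtain ⟨y', a1, a2, a3⟩ := this b
    exact ⟨y', a1, fun i => a2 i (by omega), fun j => a3 j (by omega)⟩
  intro d
  induction d with
  | zero =>
    refine ⟨y, hy, fun i hi => ?_, fun j hj => ?_⟩ <;> split_ifs with e
    · rw [e, hxy]
    · rw [pow_zero_of_le (hW y hy) (by omega), map_zero]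
    · rfl
    · exact h2 y hy j (by omega)
  | succ d ih =>
    obtain ⟨y0, a1, a2, a3⟩ := ih
    obtain ⟨y1, b1, b2, b3⟩ : ∃ y' ∈ W,
        (∀ i, b ≤ i + (d + 1) → B x ((N ^ i) y') = if i = b then 1 else 0) ∧
        ∀ j, b ≤ 2 * j + 2 + (d + 1) → qf B N j y' = qf B N j y0 := by
      refine ⟨_, op_mem hN a1 a1 (B x ((N ^ (b - (d + 1))) y0)) (d + 1), fun i hi => ?_,
        fun j hj => ?_⟩
      · rw [map_add, map_smul, pp, map_add, map_smul, a2 (i + (d + 1)) (by omega), smul_eq_mul]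
        split_ifs with e1 e2 e2
        · omega
        · rw [show b - (d + 1) = i by omega]; linear_combination B x ((N ^ i) y0) * h.two
        · rw [a2 i (by omega), if_pos e2]; simp
        · rw [a2 i (by omega), if_neg e2]; simp
      · rw [h.qf_op, h2 y0 a1 (j + _) (by omega), h1 y0 a1 _ _ (by omega)]; simp
    by_cases e : ∃ j, b = 2 * j + 2 + (d + 1)
    · obtain ⟨j0, e⟩ := e
      refine ⟨_, op_mem hN b1 hx (qf B N j0 y1) (d + 1), fun i hi => ?_, fun j hj => ?_⟩
      · have := h1 x hx 0 (i + (d + 1)) (by omega)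
        rw [map_add, map_smul, pp, map_add, map_smul, b2 i hi]
        simpa using Or.inr this
      · rw [h.qf_op, h2 x hx (j + _) (by omega)]
        by_cases e' : j = j0
        · rw [h.top (hW x hx) y1 _ _ (by omega), h.top_symm (hW y1 b1), b2 b (by omega), e',
            if_pos rfl, if_neg (by omega)]
          linear_combination qf B N j0 y1 * h.two
        · rw [h.orth (hW x hx) (by omega), b3 j hj, a3 j (by omega)]; simp
    · exact ⟨y1, b1, b2, fun j hj => (b3 j hj).trans (a3 j (by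
        by_contra h'; exact e ⟨j, by omega⟩))⟩

theorem St.norm1 (h : St B N) (hN : ∀ v ∈ W, N v ∈ W) {j : ℕ}
    (hW : ∀ v ∈ W, (N ^ (2 * j + 1 + 1)) v = 0) {x : V} (hx : x ∈ W) (hx1 : qf B N j x = 1) :
    ∃ x' ∈ W, (∃ z, x' = x + N z) ∧ ∀ i, qf B N i x' = if j ≤ i + 1 then qf B N i x else 0 := by
  suffices ∀ d, ∃ x' ∈ W, (∃ z, x' = x + N z) ∧
      ∀ i, j ≤ i + 1 + d → qf B N i x' = if j ≤ i + 1 then qf B N i x else 0 by
    obtain ⟨y', a1, a2, a3⟩ := this j
    exact ⟨y', a1, a2, fun i => a3 i (by omega)⟩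
  intro d
  induction d with
  | zero => exact ⟨x, hx, ⟨0, by simp⟩, fun i hi => (if_pos hi).symm⟩
  | succ d ih =>
    obtain ⟨x0, a1, ⟨z, hz⟩, a3⟩ := ih
    refine ⟨_, op_mem hN a1 a1 (qf B N (j - (d + 2)) x0) (2 * d + 2 + 1),
      ⟨z + qf B N (j - (d + 2)) x0 • (N ^ (2 * d + 2)) x0, by
        rw [map_add, map_smul, p1, ← add_assoc, ← hz]⟩, fun i hi => ?_⟩
    rw [h.qf_op, h.qf_zero (hW x0 a1) (j := i + _) (by omega)]
    by_cases e : j = i + 1 + (d + 1)
    · rw [h.top (hW x0 a1) x0 _ _ (by omega), ← h.qf_top (hW x0 a1), a3 j (by omega),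
        if_pos (by omega), hx1, if_neg (by omega), show j - (d + 2) = i by omega]
      linear_combination qf B N i x0 * h.two
    · rw [h.orth (hW x0 a1) (by omega), a3 i (by omega)]; simp

theorem grid_zero {g : ℕ → ℕ → F} {a : ℕ}
    (h : ∀ i j, g (i + 1) j + g i (j + 1) + g (i + 1) (j + 1) = 0) (h0 : ∀ i, g i 0 = 0)
    (ha : ∀ i j, a ≤ i → g i j = 0) (i j : ℕ) : g i j = 0 := by
  induction j generalizing i with
  | zero => exact h0 i
  | succ j ih =>
    rcases le_total a i with e | e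
    · exact ha i _ e
    · induction e using Nat.decreasingInduction with
      | self => exact ha _ _ le_rfl
      | of_succ k _ ih2 => simpa [ih, ih2] using h k j

theorem grid_diag {g : ℕ → ℕ → F} (h : ∀ i j, g (i + 1) j + g i (j + 1) + g (i + 1) (j + 1) = 0)
    (hs : ∀ i j, g i j = g j i) (h0 : ∀ i, g i i = 0) (h1 : ∀ i, g i (i + 1) = 0) (i j : ℕ) :
    g i j = 0 := by
  have : ∀ d i, g i (i + d) = 0 ∧ g i (i + d + 1) = 0 := fun d => by
    induction d with
    | zero => exact fun i => ⟨h0 i, h1 i⟩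
    | succ d ih =>
      refine fun i => ⟨(ih i).2, ?_⟩
      have := h i (i + d + 1)
      have a1 := ih (i + 1)
      rw [add_right_comm] at a1
      simpa [a1.1, a1.2, ← add_assoc] using this
  rcases le_total i j with e | e <;> obtain ⟨d, rfl⟩ := Nat.exists_eq_add_of_le e
  exacts [(this d i).1, (hs _ _).trans (this d j).1]

end H64.Wall2
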