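import Mathlib
import Cfsg.Agent.Lib.Wall2.Basic

/-!
Alternating forms invariant under `1 + N` in characteristic two: splitting off a homogeneous piece.
-/

set_option autoImplicit false

namespace H64.Wall2

open Module Finset Submodule

variable {F V : Type*} [Field F] [AddCommGroup V] [Module F V]
variable {B : LinearMap.BilinForm F V} {N : End F V} {W : Submodule F V}

theorem St.split [FiniteDimensional F V] (h : St B N) (hN : ∀ v ∈ W, N v ∈ W)
    (hnd : ∀ v ∈ W, (∀ w ∈ W, B w v = 0) → v = 0) {κ : Type} [Fintype κ] [DecidableEq κ] {b : ℕ}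
    {z : κ → V} (hz : ∀ k, z k ∈ W) (hz0 : ∀ k, (N ^ (b + 1)) (z k) = 0) (σ : κ → κ)
    (hσ : ∀ k m, B (z (σ k)) ((N ^ b) (z m)) = if m = k then 1 else 0) {W' : Submodule F V}
    (hW' : ∀ v, v ∈ W' ↔ v ∈ W ∧ ∀ i k, B ((N ^ i) (z k)) v = 0) :
    (∀ v ∈ W', N v ∈ W') ∧ (∀ v ∈ W', (∀ w ∈ W', B w v = 0) → v = 0) ∧
      finrank F W = finrank F W' + (b + 1) * Fintype.card κ ∧
      W ≤ W' ⊔ span F (Set.range fun p : ℕ × κ => (N ^ p.1) (z p.2)) ∧
      ∀ j, ∀ v ∈ W, (N ^ (2 * j + 2)) v = 0 → (∀ k, B (z k) ((N ^ b) v) = 0) →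
        ∃ v' ∈ W', (N ^ (2 * j + 2)) v' = 0 ∧ qf B N j v' = qf B N j v := by
  set U := span F (Set.range fun p : ℕ × κ => (N ^ p.1) (z p.2)) with hU
  let s : (Fin (b + 1) × κ → F) →ₗ[F] V := Fintype.linearCombination F fun p => (N ^ p.1.1) (z p.2)
  let π : V →ₗ[F] (Fin (b + 1) × κ → F) := LinearMap.pi fun p => B ((N ^ p.1.1) (z p.2))
  have h1 : ∀ (c : Fin (b + 1) × κ → F) (i : Fin (b + 1)) k, (∀ i' < i, ∀ m, c (i', m) = 0) →
      π (s c) (i.rev, σ k) = c (i, k) := fun c i k hc => by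
    simp only [π, s, LinearMap.pi_apply, Fintype.linearCombination_apply, map_sum, map_smul,
      smul_eq_mul]
    have e := i.2
    rw [sum_eq_single (i, k) (fun p _ hp => ?_) (by simp), h.top (hz0 _) _ _ _ (by
      simp only [Fin.val_rev]; omega), hσ, if_pos rfl, mul_one]
    obtain ⟨i', m⟩ := p
    rcases lt_trichotomy i' i with e | rfl | e
    · rw [hc i' e, zero_mul]
    · rw [h.top (hz0 _) _ _ _ (by simp only [Fin.val_rev]; omega), hσ,
        if_neg fun e => hp (Prod.ext rfl e), mul_zero]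
    · rw [h.orth (hz0 _) (by simp only [Fin.val_rev, Fin.lt_def] at e ⊢; omega), mul_zero]
  have h2 : Function.Surjective (π ∘ₗ s) := by
    refine LinearMap.injective_iff_surjective.1 ((injective_iff_map_eq_zero _).2 fun c hc => ?_)
    have : ∀ i k, c (i, k) = 0 := fun i => by
      induction i using WellFoundedLT.induction with
      | ind i ih => exact fun k => (h1 c i k ih).symm.trans (congrFun hc _)
    exact funext fun p => this p.1 p.2
  have h3 : ∀ p : ℕ × κ, (N ^ p.1) (z p.2) ∈ U := fun p => subset_span ⟨p, rfl⟩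
  have h4 : U ≤ W := span_le.2 (by
    rintro _ ⟨p, rfl⟩; exact End.pow_apply_mem_of_forall_mem _ hN _ (hz _))
  have h5 : ∀ c, s c ∈ U := fun c => by
    simp only [s, Fintype.linearCombination_apply]
    exact sum_mem fun p _ => U.smul_mem _ (h3 (p.1, p.2))
  have h6 : ∀ v, v ∈ W' ↔ v ∈ W ∧ π v = 0 := fun v => (hW' v).trans (and_congr_right fun _ =>
    ⟨fun h => funext fun p => h _ _, fun h' i k => by
      rcases lt_or_ge i (b + 1) with e | e
      · exact congrFun h' (⟨i, e⟩, k)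
      · rw [pow_zero_of_le (hz0 k) e]; simp⟩)
  have h7 : ∀ v ∈ W, ∃ c, v - s c ∈ W' := fun v hv => by
    obtain ⟨c, hc⟩ := h2 (π v)
    exact ⟨c, (h6 _).2 ⟨W.sub_mem hv (h4 (h5 c)), by rw [map_sub, ← hc]; simp⟩⟩
  have h8 : ∀ u ∈ U, ∀ v ∈ W', B u v = 0 := fun u hu v hv => by
    have : U ≤ LinearMap.ker (B.flip v) := span_le.2 (by
      rintro _ ⟨p, rfl⟩; exact ((hW' v).1 hv).2 _ _)
    exact this hu
  have h9 : ∀ v ∈ W', N v ∈ W' := fun v hv => (hW' _).2 ⟨hN v ((hW' v).1 hv).1, fun i k => by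
    simpa using grid_zero (g := fun i j => B ((N ^ i) (z k)) ((N ^ j) v)) (a := b + 1)
      (fun i j => by simpa only [p1] using h.inv ((N ^ i) (z k)) ((N ^ j) v))
      (fun i => h8 _ (h3 (i, k)) v hv) (fun i j e => by simp [pow_zero_of_le (hz0 k) e]) i 1⟩
  have h10 : ∀ u ∈ U, N u ∈ U := fun u hu => by
    have : U ≤ U.comap N := span_le.2 (by
      rintro _ ⟨p, rfl⟩; simpa [p1] using h3 (p.1 + 1, p.2))
    exact this hu
  have h11 : ∀ v ∈ W', (∀ w ∈ W', B w v = 0) → v = 0 := fun v hv hv' =>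
    hnd v ((hW' v).1 hv).1 fun w hw => by
      obtain ⟨c, hc⟩ := h7 w hw
      simpa [h8 _ (h5 c) v hv] using hv' _ hc
  refine ⟨h9, h11, ?_, fun v hv => ?_, fun j v hv h0 h0' => ?_⟩
  · have a1 := (π.domRestrict W).finrank_range_add_finrank_ker
    rw [LinearMap.range_eq_top.2 fun c => by
      obtain ⟨c, rfl⟩ := h2 c
      exact ⟨⟨s c, h4 (h5 c)⟩, rfl⟩, show LinearMap.ker (π.domRestrict W) = W'.comap W.subtype by
      ext v; simp [h6], (comapSubtypeEquivOfLe fun v hv => ((hW' v).1 hv).1).finrank_eq] at a1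
    simp [← a1, add_comm]
  · obtain ⟨c, hc⟩ := h7 v hv
    simpa using add_mem_sup hc (h5 c)
  · obtain ⟨c, hc⟩ := h7 v hv
    have a1 : ∀ k, c (0, k) = 0 := fun k => by
      rw [← h1 c 0 k (by simp)]
      have a2 := congrFun ((h6 _).1 hc).2 (Fin.rev 0, σ k)
      rw [map_sub, Pi.sub_apply, Pi.zero_apply, sub_eq_zero] at a2
      rw [← a2, ← h0' (σ k), h.top_symm (hz0 _), h.symm]
      simp [π]
    obtain ⟨u, hu, a2⟩ : s c ∈ U.map N := by
      simp only [s, Fintype.linearCombination_apply]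
      refine sum_mem fun p _ => ?_
      obtain ⟨⟨_ | i, hi⟩, k⟩ := p
      · simp [a1]
      · exact smul_mem _ _ ⟨_, h3 (i, k), p1 _ _⟩
    have a3 := fun i => End.pow_apply_mem_of_forall_mem i h9 _ hc
    have a4 := fun i => End.pow_apply_mem_of_forall_mem i h10 _ hu
    have a5 : (N ^ (2 * j + 2)) (v - s c) = 0 := h11 _ (a3 _) fun w hw => by
      rw [map_sub, h0, zero_sub, map_neg, ← a2, p2, h.symm, h8 _ (a4 _) w hw, neg_zero]
    refine ⟨_, hc, a5, ?_⟩
    rw [map_sub, h0, zero_sub, neg_eq_zero, ← a2, p2] at a5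
    have a6 := h.qf_op j 1 1 (v - s c) u
    rw [one_smul, pow_one, a2, sub_add_cancel, h.qf_zero a5 (by omega), h.symm,
      h8 _ (a4 _) _ (a3 _)] at a6
    simp [a6]

theorem exists_equiv_of_gram {V' I : Type*} [AddCommGroup V'] [Module F V']
    {B' : LinearMap.BilinForm F V'} {N' : End F V'} (hB : ∀ v, (∀ w, B w v = 0) → v = 0)
    (hB' : ∀ v, (∀ w, B' w v = 0) → v = 0) {f : I → V} {f' : I → V'}
    (hf : ⊤ ≤ span F (Set.range f)) (hf' : ⊤ ≤ span F (Set.range f'))
    (h : ∀ i j, B (f i) (f j) = B' (f' i) (f' j)) (s : I → I) (hs : ∀ i, N (f i) = f (s i))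
    (hs' : ∀ i, N' (f' i) = f' (s i)) :
    ∃ e : V ≃ₗ[F] V', (∀ v w, B' (e v) (e w) = B v w) ∧ ∀ v, e (N v) = N' (e v) := by
  have a1 : Function.Surjective (Finsupp.linearCombination F f) := by
    rwa [← LinearMap.range_eq_top, Finsupp.range_linearCombination, eq_top_iff]
  have a2 : Function.Surjective (Finsupp.linearCombination F f') := by
    rwa [← LinearMap.range_eq_top, Finsupp.range_linearCombination, eq_top_iff]
  have a3 : ∀ c d, B (Finsupp.linearCombination F f c) (Finsupp.linearCombination F f d) =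
      B' (Finsupp.linearCombination F f' c) (Finsupp.linearCombination F f' d) := fun c d => by
    simp [Finsupp.linearCombination_apply, Finsupp.sum, h]
  have a4 : LinearMap.ker (Finsupp.linearCombination F f) =
      LinearMap.ker (Finsupp.linearCombination F f') := by
    ext c
    exact ⟨fun hc => hB' _ fun w => by
      obtain ⟨d, rfl⟩ := a2 w
      rw [← a3, LinearMap.mem_ker.1 hc, map_zero], fun hc => hB _ fun w => by
      obtain ⟨d, rfl⟩ := a1 w
      rw [a3, LinearMap.mem_ker.1 hc, map_zero]⟩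
  let e := ((LinearMap.quotKerEquivOfSurjective _ a1).symm.trans (quotEquivOfEq _ _ a4)).trans
    (LinearMap.quotKerEquivOfSurjective _ a2)
  have a5 : ∀ c, e (Finsupp.linearCombination F f c) = Finsupp.linearCombination F f' c := fun c => by
    simp [e]
  have a6 : ∀ i, e (f i) = f' i := fun i => by simpa using a5 (Finsupp.single i 1)
  refine ⟨e, fun v w => ?_, fun v => ?_⟩
  · obtain ⟨c, rfl⟩ := a1 v
    obtain ⟨d, rfl⟩ := a1 w
    rw [a5, a5, a3]
  · obtain ⟨c, rfl⟩ := a1 v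
    simp [Finsupp.linearCombination_apply, Finsupp.sum, a6, hs, hs']

end H64.Wall2
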