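import Mathlib
import Cfsg.Agent.Lib.Wall2.Split

/-!
Alternating forms invariant under a unipotent endomorphism in characteristic two: normal forms.
-/

set_option autoImplicit false

namespace H64.Wall2

open Module Finset Submodule

variable {F V : Type*} [Field F] [AddCommGroup V] [Module F V]

/-- Labels of indecomposable pieces: level, rank two, twisted. -/
abbrev Lab := ℕ × Bool × Bool

/-- The values of the quadratic invariants on the generators of a piece. -/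
def fq (α : F) (l : Lab) (c : Bool) (j : ℕ) : F :=
  if l.2.1 then (if 2 * j + 3 = l.1 ∧ l.2.2 then (if c then 1 else α) else 0)
  else if c then (if 2 * j + 2 = l.1 then 1 else if 2 * j + 4 = l.1 ∧ l.2.2 then α else 0) else 0

/-- Valid labels. -/
def Val (l : Lab) : Prop :=
  1 ≤ l.1 ∧ (l.2.1 = false → l.1 % 2 = 0) ∧ (l.2.2 → 3 ≤ l.1 ∧ (l.2.1 → l.1 % 2 = 1))

/-- Generators of a piece. -/
structure Piece (B : LinearMap.BilinForm F V) (N : End F V) (α : F) (l : Lab) (z : Bool → V) :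
    Prop where
  pw : ∀ c, (N ^ l.1) (z c) = 0
  cross : ∀ i, B (z true) ((N ^ i) (z false)) = if l.2.1 ∧ i + 1 = l.1 then 1 else 0
  q : ∀ c j, qf B N j (z c) = fq α l c j
  val : Val l
  zero : l.2.1 = false → z false = 0

variable {B : LinearMap.BilinForm F V} {N : End F V} {W : Submodule F V} {α : F}

theorem St.alt_top (h : St B N) {b : ℕ} {v : V} (hv : (N ^ (b + 1)) v = 0)
    (h' : ∀ j, b = 2 * j + 1 → qf B N j v = 0) : B v ((N ^ b) v) = 0 := by
  obtain ⟨j, e | e⟩ := Nat.even_or_odd' b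
  · rw [← h.top hv v j j (by omega), h.alt]
  · rw [← h' j e, h.qf_top (e ▸ hv), e]

theorem Piece.lev_le (h : St B N) {l : Lab} {z : Bool → V} (hp : Piece B N α l z) {b : ℕ}
    (hb : ∀ c, (N ^ b) (z c) = 0) : l.1 ≤ b := by
  by_contra e
  obtain ⟨a, _ | _, β⟩ := l
  · obtain ⟨j, rfl⟩ : ∃ j, a = 2 * j + 2 := ⟨a / 2 - 1, by have := hp.val; simp [Val] at this; omega⟩
    have := hp.q true j
    rw [h.qf_zero (hb _) (by omega)] at this
    simp [fq] at this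
  · have := hp.cross (a - 1)
    rw [pow_zero_of_le (hb _) (by omega)] at this
    simp at this e
    omega

theorem Piece.split [FiniteDimensional F V] (h : St B N) (hN : ∀ v ∈ W, N v ∈ W)
    (hnd : ∀ v ∈ W, (∀ w ∈ W, B w v = 0) → v = 0) {b : ℕ} {ρ β : Bool} {z : Bool → V}
    (hz : ∀ k, z k ∈ W) (hp : Piece B N α (b + 1, ρ, β) z) {W' : Submodule F V}
    (hW' : ∀ v, v ∈ W' ↔ v ∈ W ∧ ∀ i k, B ((N ^ i) (z k)) v = 0) :
    (∀ v ∈ W', N v ∈ W') ∧ (∀ v ∈ W', (∀ w ∈ W', B w v = 0) → v = 0) ∧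
      finrank F W = finrank F W' + (b + 1) * (if ρ then 2 else 1) ∧
      W ≤ W' ⊔ span F (Set.range fun p : ℕ × Bool => (N ^ p.1) (z p.2)) ∧
      ∀ j, ∀ v ∈ W, (N ^ (2 * j + 2)) v = 0 → (∀ k, B (z k) ((N ^ b) v) = 0) →
        ∃ v' ∈ W', (N ^ (2 * j + 2)) v' = 0 ∧ qf B N j v' = qf B N j v := by
  cases ρ
  · obtain ⟨j, rfl⟩ : ∃ j, b = 2 * j + 1 := ⟨b / 2, by have := hp.val; simp [Val] at this; omega⟩
    obtain ⟨a1, a2, a3, a4, a5⟩ := h.split hN hnd (z := fun _ : Unit => z true) (fun _ => hz _)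
      (fun _ => hp.pw _) id (fun _ _ => by simp [← h.qf_top (hp.pw true), hp.q, fq]) (W' := W')
      fun v => (hW' v).trans (by simp [hp.zero rfl])
    refine ⟨a1, a2, a3, a4.trans (sup_le_sup_left (span_mono ?_) _),
      fun j v hv h1 h2 => a5 j v hv h1 fun _ => h2 _⟩
    rintro _ ⟨p, rfl⟩
    exact ⟨(p.1, true), rfl⟩
  · have h1 : ∀ c, B (z c) ((N ^ b) (z c)) = 0 := fun c => h.alt_top (hp.pw c) fun j e => by
      simp [hp.q, fq, e, show 2 * j + 3 ≠ 2 * j + 1 + 1 by omega]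
    have h2 := hp.cross b
    refine h.split hN hnd hz hp.pw not ?_ hW'
    rintro (_ | _) (_ | _) <;> simp [h1, h.top_symm (hp.pw false) (z true)] at h2 ⊢ <;> exact h2

theorem St.exists_V (h : St B N) (hN : ∀ v ∈ W, N v ∈ W) {j : ℕ}
    (hW : ∀ v ∈ W, (N ^ (2 * j + 1 + 1)) v = 0) {x : V} (hx : x ∈ W) (hx1 : qf B N j x = 1)
    (β : Bool) (h0 : β → 1 ≤ j) (h1 : ∀ i, j = i + 1 → qf B N i x = if β then α else 0) :
    ∃ x' ∈ W, (∃ z, x' = x + N z) ∧
      Piece B N α (2 * j + 1 + 1, false, β) fun c => if c then x' else 0 := by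
  obtain ⟨x', a1, a2, a3⟩ := h.norm1 hN hW hx hx1
  refine ⟨x', a1, a2, fun c => ?_, by simp, fun c i => ?_, ?_, by simp⟩
  · cases c <;> simp [hW x' a1]
  · cases c
    · simp [fq, qf]
    simp only [a3, fq, if_true, Bool.false_eq_true, if_false]
    rcases lt_trichotomy i j with e | rfl | e
    · rw [if_neg (show ¬ 2 * i + 2 = _ by omega)]
      by_cases e' : j = i + 1
      · simp [e', h1 i e', mul_add]
      · rw [if_neg (by omega), if_neg (by omega)]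
    · simp [hx1]
    · rw [h.qf_zero (hW x hx) (by omega), if_neg (show ¬ 2 * i + 2 = _ by omega),
        if_neg (show ¬ (_ ∧ _) by omega), ite_self]
  · simp only [Val]
    exact ⟨by omega, fun _ => by omega, fun e => ⟨by have := h0 e; omega, by simp⟩⟩

theorem St.exists_W (h : St B N) (hN : ∀ v ∈ W, N v ∈ W) {b : ℕ}
    (hW : ∀ v ∈ W, (N ^ (b + 1)) v = 0) (halt : ∀ v ∈ W, B v ((N ^ b) v) = 0) {x y : V} (hx : x ∈ W)
    (hy : y ∈ W) (hxy : B x ((N ^ b) y) = 1) (β : Bool) (h0 : β → 2 ≤ b ∧ b % 2 = 0)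
    (h1 : ∀ j, 2 * j + 2 = b → qf B N j x = (if β then 1 else 0) ∧ qf B N j y = if β then α else 0) :
    ∃ z : Bool → V, (∀ c, z c ∈ W) ∧ Piece B N α (b + 1, true, β) z := by
  obtain ⟨x', a1, a2, a3⟩ := h.norm2 hN hW halt hy hx ((h.top_symm (hW y hy) x).trans hxy)
  obtain ⟨y', b1, b2, b3⟩ := h.norm2 hN hW halt a1 hy
    ((h.top_symm (hW x' a1) y).trans (by simp [a2]))
  refine ⟨fun c => if c then x' else y', fun c => by cases c <;> simpa, fun c => ?_, by simpa,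
    fun c j => ?_, ?_, by simp⟩
  · cases c <;> simp [hW x' a1, hW y' b1]
  · by_cases e : 2 * j + 2 = b
    · cases c <;> simp [a3, b3, fq, h1 j e, ← e]
    · cases c <;> simp [a3, b3, fq, e, show ¬ 2 * j + 3 = b + 1 by omega]
  · simp only [Val]
    exact ⟨by omega, by simp, fun e => by have := h0 e; omega⟩

theorem St.exists_top (h : St B N) (hs : ∀ c : F, ∃ w, w ^ 2 = c)
    (hα : ∀ c : F, ∃ w, w ^ 2 + w + c = 0 ∨ w ^ 2 + w + c = α) (hN : ∀ v ∈ W, N v ∈ W)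
    (hnd : ∀ v ∈ W, (∀ w ∈ W, B w v = 0) → v = 0) {b : ℕ} (hW : ∀ v ∈ W, (N ^ (b + 1)) v = 0)
    (hb : ∃ v ∈ W, (N ^ b) v ≠ 0) : ∃ (ρ β : Bool) (z : Bool → V), (∀ c, z c ∈ W) ∧
      Piece B N α (b + 1, ρ, β) z ∧
      (β → ∀ v ∈ W, (∀ i c, B ((N ^ i) (z c)) v = 0) → (N ^ b) v = 0) ∧
      (β → ρ = false → ∀ j, b = 2 * j + 3 → ∀ v ∈ W, (∀ i c, B ((N ^ i) (z c)) v = 0) →
        qf B N j v = 0) ∧
      (∀ j, b = 2 * j + 1 → (∃ v ∈ W, qf B N j v ≠ 0) → ρ = false ∧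
        ((∃ v ∈ W, qf B N j v ≠ 0 ∧ ∀ c, B (z c) ((N ^ b) v) = 0) ∨
          ∀ v ∈ W, (∀ i c, B ((N ^ i) (z c)) v = 0) → (N ^ b) v = 0)) ∧
      (β → ∀ j, b = 2 * j + 2 → ∀ v ∈ W, (N ^ b) v = 0 → qf B N j v = 0) := by
  have h2 := h.two
  have hd : ∀ y ∈ W, (N ^ b) y ≠ 0 → ∃ x ∈ W, B y ((N ^ b) x) = 1 := fun y hy h0 => by
    obtain ⟨x, hx, h1⟩ : ∃ x ∈ W, B x ((N ^ b) y) ≠ 0 := by
      by_contra! h'
      exact h0 (hnd _ (End.pow_apply_mem_of_forall_mem _ hN _ hy) h')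
    exact ⟨_, W.smul_mem (B x ((N ^ b) y))⁻¹ hx, by
      simp [h.top_symm (hW y hy) x, inv_mul_cancel₀ h1]⟩
  have hsc : ∀ j, ∀ x, qf B N j x ≠ 0 → ∃ c : F, c ≠ 0 ∧ qf B N j (c • x) = 1 := fun j x h0 => by
    obtain ⟨c, hc⟩ := hs (qf B N j x)⁻¹
    exact ⟨c, by rintro rfl; exact h0 (by simpa using hc.symm), by rw [qf_smul, hc, inv_mul_cancel₀ h0]⟩
  have hk : ∀ j x y, qf B N j y ≠ 0 → B ((N ^ (j + 1)) x) ((N ^ (j + 1)) y) = 0 →
      ∃ c : F, qf B N j (x + c • y) = 0 := fun j x y h0 h1 => by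
    obtain ⟨c, hc⟩ := hs (qf B N j x / qf B N j y)
    refine ⟨c, ?_⟩
    rw [h.qf_add, qf_smul, hc, div_mul_cancel₀ _ h0, map_smul, map_smul, h1]
    linear_combination qf B N j x * h2
  by_cases h1 : ∃ j, b = 2 * j + 1 ∧ ∃ x ∈ W, qf B N j x ≠ 0
  · obtain ⟨j, rfl, x, hx, hx0⟩ := h1
    by_cases h3 : ∃ x ∈ W, ∃ y ∈ W, qf B N j x ≠ 0 ∧ qf B N j y ≠ 0 ∧ B x ((N ^ (2 * j + 1)) y) = 0
    · obtain ⟨x, hx, y, hy, a1, a2, a3⟩ := h3
      obtain ⟨c, -, a4⟩ := hsc j x a1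
      obtain ⟨w, hw⟩ : ∃ w : F, ∀ i, j = i + 1 → qf B N i (c • x + w • N y) = 0 := by
        rcases j with _ | j
        · exact ⟨0, by omega⟩
        obtain ⟨w, hw⟩ := hk j (c • x) (N y) (by simpa [← qf_pow] using a2) (by
          rw [p2, h.top (hW y hy) _ _ _ (by omega)]; simp [a3])
        exact ⟨w, fun i hi => by rw [← hw, Nat.succ_injective hi]⟩
      obtain ⟨x', b1, ⟨z, b2⟩, b3⟩ := h.exists_V (α := α) hN hW (op_mem hN (W.smul_mem c hx) hy w 1)
        (by rw [h.qf_op, a4, h.qf_zero (hW y hy) (by omega), h.orth (hW y hy) (by omega)]; simp)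
        false (by simp) (by simpa using hw)
      refine ⟨false, false, _, fun c => by cases c <;> simp [b1], b3, by simp, by simp,
        fun i hi _ => ⟨rfl, Or.inl ⟨y, hy, by rwa [show i = j by omega], fun c => ?_⟩⟩, by simp⟩
      have := fun z => h.orth (i := 1) (j := 2 * j + 1) (hW y hy) (by omega) z
      cases c <;> simp_all
    have h4 : ∀ x ∈ W, qf B N j x = 1 → ∀ y ∈ W, B x ((N ^ (2 * j + 1)) y) = 0 →
        (N ^ (2 * j + 1)) y = 0 := fun x hx a1 y hy a2 => by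
      by_contra a3
      obtain ⟨z, hz, a4⟩ := hd y hy a3
      push Not at h3
      have a5 : ∀ y ∈ W, B x ((N ^ (2 * j + 1)) y) = 0 → qf B N j y = 0 := fun y hy a =>
        by_contra fun a' => h3 x hx y hy (by simp [a1]) a' a
      have a6 := h.qf_top (hW x hx)
      have a7 := h.top_symm (hW x hx) y
      rw [a1] at a6
      obtain ⟨z', hz', a8, a9⟩ : ∃ z' ∈ W, B y ((N ^ (2 * j + 1)) z') = 1 ∧
          B x ((N ^ (2 * j + 1)) z') = 0 := ⟨z - B x ((N ^ (2 * j + 1)) z) • x,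
        W.sub_mem hz (W.smul_mem _ hx), by simp [a4, ← a7, a2], by simp [← a6]⟩
      refine h3 _ (W.add_mem hx hy) _ (W.add_mem hx hz') ?_ ?_ ?_
      · simp [h.qf_add, a1, a5 y hy a2, h.orth (hW y hy) (i := j + 1) (j := j + 1) (by omega)]
      · simp [h.qf_add, a1, a5 z' hz' a9, h.orth (hW z' hz') (i := j + 1) (j := j + 1) (by omega)]
      · simp [← a6, a8, a9, ← a7, a2, one_add_one_eq_two, h2]
    have h5 : ∀ {x' β}, x' ∈ W → Piece B N α (2 * j + 1 + 1, false, β) (fun c => if c then x' else 0) →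
        ∀ v ∈ W, (∀ i (c : Bool), B ((N ^ i) (if c then x' else 0)) v = 0) →
        (N ^ (2 * j + 1)) v = 0 := fun {x' β} a1 a2 v hv a3 =>
      h4 x' a1 (by simpa [fq] using a2.q true j) v hv
        ((h.top_symm (hW x' a1) v).trans ((h.symm _ _).trans (a3 _ true)))
    have h6 : ∀ x ∈ W, qf B N j x = 1 → (∀ i, j = i + 1 → qf B N i x = 0) → ∃ x' ∈ W,
        Piece B N α (2 * j + 1 + 1, false, false) fun c => if c then x' else 0 := fun x hx a1 a2 =>
      (h.exists_V hN hW hx a1 false (by simp) (by simpa using a2)).imp fun _ a => ⟨a.1, a.2.2⟩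
    suffices (∃ x' ∈ W, Piece B N α (2 * j + 1 + 1, false, false) fun c => if c then x' else 0) ∨
        ∃ x' ∈ W, Piece B N α (2 * j + 1 + 1, false, true) (fun c => if c then x' else 0) ∧
          ∀ i, j = i + 1 → ∀ v ∈ W, (∀ i (c : Bool), B ((N ^ i) (if c then x' else 0)) v = 0) →
          qf B N i v = 0 by
      rcases this with ⟨x', b1, b2⟩ | ⟨x', b1, b2, b3⟩
      · exact ⟨false, false, _, fun c => by cases c <;> simp [b1], b2, by simp, by simp,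
          fun i hi _ => ⟨rfl, Or.inr (h5 b1 b2)⟩, by simp⟩
      · exact ⟨false, true, _, fun c => by cases c <;> simp [b1], b2, fun _ => h5 b1 b2,
          fun _ _ i hi => b3 i (by omega), fun i hi _ => ⟨rfl, Or.inr (h5 b1 b2)⟩,
          fun _ i hi => by omega⟩
    obtain ⟨c, -, a4⟩ := hsc j x hx0
    have a5 := W.smul_mem c hx
    rcases j with _ | j
    · exact Or.inl (h6 _ a5 a4 (by omega))
    obtain ⟨w, hw⟩ := hα (qf B N j (c • x))
    have a6 := h.qf_op j 1 w (c • x) (c • x)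
    have a7 : qf B N (j + 1) (c • x + w • (N ^ 1) (c • x)) = 1 := by
      rw [h.qf_op, a4, h.qf_zero (hW _ a5) (by omega), h.orth (hW _ a5) (by omega)]; simp
    rw [show B _ _ = 1 from a4, a4] at a6
    rcases hw with hw | hw
    · exact Or.inl (h6 _ (op_mem hN a5 a5 w 1) a7 fun i hi => by
        rw [← Nat.succ_injective hi, a6, ← hw]; ring)
    obtain ⟨x', b1, -, b2⟩ := h.exists_V (α := α) hN hW (op_mem hN a5 a5 w 1) a7 true (by simp)
      fun i hi => by rw [← Nat.succ_injective hi, a6, ← hw]; simp; ring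
    by_cases b3 : ∃ v ∈ W, (∀ i (c : Bool), B ((N ^ i) (if c then x' else 0)) v = 0) ∧ qf B N j v ≠ 0
    · obtain ⟨v, hv, b3, b4⟩ := b3
      have b5 := h5 b1 b2 v hv b3
      have b6 : ∀ i k, B ((N ^ i) x') ((N ^ k) v) = 0 := grid_zero (a := 2 * (j + 1) + 1 + 1)
        (fun i k => by simpa only [p1] using h.inv ((N ^ i) x') ((N ^ k) v)) (fun i => b3 i true)
        fun i k e => by simp [pow_zero_of_le (hW x' b1) e]
      obtain ⟨w, hw⟩ := hk j x' v b4 (b6 _ _)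
      refine Or.inl (h6 _ (W.add_mem b1 (W.smul_mem w hv)) ?_ fun i hi => by
        rwa [← Nat.succ_injective hi])
      simpa [h.qf_add, qf_smul, h.qf_zero b5 le_rfl, b6, fq] using b2.q true (j + 1)
    · push Not at b3
      exact Or.inr ⟨x', b1, b2, fun i hi => Nat.succ_injective hi ▸ b3⟩
  push Not at h1
  have halt : ∀ v ∈ W, B v ((N ^ b) v) = 0 := fun v hv => h.alt_top (hW v hv) fun j e => h1 j e v hv
  by_cases h3 : ∃ x ∈ W, ∃ y ∈ W, B x ((N ^ b) y) = 1 ∧ ∀ j, 2 * j + 2 = b → qf B N j x = 0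
  · obtain ⟨x, hx, y, hy, a1, a2⟩ := h3
    obtain ⟨z, b1, b2⟩ := h.exists_W (α := α) hN hW halt hx
      (op_mem hN hy hx (qf B N (b / 2 - 1) y) 0) (by simp [a1, halt x hx]) false (by simp)
      fun j e => ⟨a2 j e, by
        rw [h.qf_op, h.top (hW x hx) _ _ _ (by omega), ← h.top_symm (hW x hx), a1, add_zero, a2 j e,
          show b / 2 - 1 = j by omega, if_neg (by simp)]
        linear_combination qf B N j y * h2⟩
    exact ⟨true, false, z, b1, b2, by simp, by simp,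
      fun j e ⟨v, hv, h0⟩ => absurd (h1 j e v hv) h0, by simp⟩
  push Not at h3
  obtain ⟨x, hx, hx0⟩ := hb
  obtain ⟨y, hy, a1⟩ := hd x hx hx0
  obtain ⟨j, rfl, a2⟩ := h3 x hx y hy a1
  have h4 : ∀ x ∈ W, ∀ y ∈ W, B x ((N ^ (2 * j + 2)) y) = 1 → qf B N j x ≠ 0 := fun x hx y hy a => by
    obtain ⟨i, hi, a'⟩ := h3 x hx y hy a
    rwa [show j = i by omega]
  obtain ⟨c, a3, a4⟩ := hsc j x a2
  obtain ⟨w, hw⟩ := hα (qf B N j (c⁻¹ • y))
  have a5 := W.smul_mem c hx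
  have a6 := op_mem hN (W.smul_mem c⁻¹ hy) a5 w 0
  have a7 : B (c • x) ((N ^ (2 * j + 2)) (c⁻¹ • y)) = 1 := by simp [a1, a3]
  have a8 : B (c • x) ((N ^ (2 * j + 2)) (c⁻¹ • y + w • (N ^ 0) (c • x))) = 1 := by
    simp [a1, a3, halt x hx]
  have a9 := h.qf_op j 0 w (c⁻¹ • y) (c • x)
  rw [h.top (hW _ a5) _ _ _ (by omega), ← h.top_symm (hW _ a5), a7, add_zero, a4] at a9
  obtain ⟨z, b1, b2⟩ := h.exists_W (α := α) hN hW halt a5 a6 a8 true (by omega) fun i e => by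
    obtain rfl : i = j := by omega
    refine ⟨a4, a9.trans (Eq.trans (by ring) (hw.resolve_left fun hw => ?_))⟩
    exact h4 _ a6 _ a5 ((h.top_symm (hW _ a6) _).trans a8) (by rw [a9, ← hw]; ring)
  have b3 : B (z true) ((N ^ (2 * j + 2)) (z false)) = 1 := by simp [b2.cross]
  have b4 : ∀ v ∈ W, B v ((N ^ (2 * j + 2)) (z true)) = 0 → B v ((N ^ (2 * j + 2)) (z false)) = 0 →
      qf B N j v = 0 := fun v hv c1 c2 => by
    by_contra c3
    obtain ⟨c, hc⟩ := hk j (z true) v c3 (by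
      rw [h.symm, h.top (hW _ (b1 _)) _ _ _ (by omega), c1])
    exact h4 _ (W.add_mem (b1 _) (W.smul_mem c hv)) _ (b1 false) (by simp [b3, c2]) hc
  refine ⟨true, true, z, b1, b2, fun _ v hv c1 => by_contra fun c2 => ?_, by simp, by omega,
    fun _ i e v hv c1 => ?_⟩
  · obtain ⟨y, hy, c3⟩ := hd v hv c2
    exact h4 v hv y hy c3 (b4 v hv ((h.symm _ _).trans (c1 _ _)) ((h.symm _ _).trans (c1 _ _)))
  · obtain rfl : i = j := by omega
    exact b4 v hv (by rw [← h.top_symm (hW _ (b1 _)), c1, map_zero])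
      (by rw [← h.top_symm (hW _ (b1 _)), c1, map_zero])

/-- An orthogonal decomposition into pieces in normal form. -/
structure Dec (B : LinearMap.BilinForm F V) (N : End F V) (α : F) (W : Submodule F V) {ι : Type}
    [Fintype ι] (l : ι → Lab) (z : ι → Bool → V) : Prop where
  mem : ∀ k c, z k c ∈ W
  piece : ∀ k, Piece B N α (l k) (z k)
  orth : ∀ k k', k ≠ k' → ∀ c c' i j, B ((N ^ i) (z k c)) ((N ^ j) (z k' c')) = 0
  le : W ≤ span F (Set.range fun p : ι × Bool × ℕ => (N ^ p.2.2) (z p.1 p.2.1))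
  dim : finrank F W = ∑ k, (l k).1 * (if (l k).2.1 then 2 else 1)
  b1 : ∀ k k', (l k).2.2 → (l k').2.2 → (l k).1 = (l k').1 → k = k'
  b2 : ∀ k k', (l k).2.2 → (l k).2.1 = false → (l k').1 + 1 ≠ (l k).1
  flag : ∀ j, ∀ v ∈ W, (N ^ (2 * j + 2)) v = 0 → qf B N j v ≠ 0 → ∀ k,
    ((l k).1 = 2 * j + 2 → (l k).2.1 = false) ∧ ((l k).2.2 → (l k).1 ≠ 2 * j + 3 ∧ (l k).1 ≠ 2 * j + 4)

theorem St.exists_dec [FiniteDimensional F V] (h : St B N) (hs : ∀ c : F, ∃ w, w ^ 2 = c)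
    (hα : ∀ c : F, ∃ w, w ^ 2 + w + c = 0 ∨ w ^ 2 + w + c = α) (n : ℕ) : ∀ W : Submodule F V,
    finrank F W = n → (∀ v ∈ W, N v ∈ W) → (∀ v ∈ W, (∀ w ∈ W, B w v = 0) → v = 0) →
    (∃ a, ∀ v ∈ W, (N ^ a) v = 0) →
    ∃ (ι : Type) (_ : Fintype ι) (l : ι → Lab) (z : ι → Bool → V), Dec B N α W l z := by
  classical
  induction n using Nat.strong_induction_on with | _ n ih =>
  intro W hn hN hnd ha
  obtain ⟨a, hW, hb⟩ : ∃ a, (∀ v ∈ W, (N ^ a) v = 0) ∧ ∀ b < a, ¬ ∀ v ∈ W, (N ^ b) v = 0 :=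
    ⟨_, Nat.find_spec ha, fun _ => Nat.find_min ha⟩
  rcases a with _ | b
  · obtain rfl : W = ⊥ := eq_bot_iff.2 hW
    exact ⟨Empty, inferInstance, Empty.elim, Empty.elim, by simp, by simp, by simp, bot_le, by simp,
      by simp, by simp, by simp⟩
  obtain ⟨ρ, β, z0, a1, a2, a3, a4, a5, a6⟩ := h.exists_top hs hα hN hnd hW
    (by simpa using hb b b.lt_succ_self)
  let W' := W ⊓ ⨅ (i : ℕ) (c : Bool), LinearMap.ker (B ((N ^ i) (z0 c)))
  have hW' : ∀ v, v ∈ W' ↔ v ∈ W ∧ ∀ i k, B ((N ^ i) (z0 k)) v = 0 := fun v => by simp [W']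
  obtain ⟨b1, b2, b3, b4, b5⟩ := a2.split h hN hnd a1 hW'
  obtain ⟨ι, _, l, z, hd⟩ := ih _ (by rw [← hn, b3]; split_ifs <;> omega) W' rfl b1 b2
    ⟨_, fun v hv => hW v hv.1⟩
  have c1 : ∀ k, (l k).1 ≤ b + 1 := fun k => (hd.piece k).lev_le h fun c => hW _ (hd.mem k c).1
  have c2 : (∀ v ∈ W, (∀ i c, B ((N ^ i) (z0 c)) v = 0) → (N ^ b) v = 0) → ∀ k, (l k).1 ≤ b :=
    fun h' k => (hd.piece k).lev_le h fun c => h' _ (hd.mem k c).1 ((hW' _).1 (hd.mem k c)).2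
  have c3 : ∀ k c c' i j, B ((N ^ i) (z0 c)) ((N ^ j) (z k c')) = 0 := fun k c c' i j =>
    ((hW' _).1 (End.pow_apply_mem_of_forall_mem j b1 _ (hd.mem k c'))).2 i c
  have c4 : ∀ j, ∀ v ∈ W, (N ^ (2 * j + 2)) v = 0 → 2 * j + 2 ≤ b →
      ∃ v' ∈ W', (N ^ (2 * j + 2)) v' = 0 ∧ qf B N j v' = qf B N j v := fun j v hv h0 hj =>
    b5 j v hv h0 fun c => by rw [pow_zero_of_le h0 hj, map_zero]
  refine ⟨Option ι, inferInstance, fun k => k.elim (b + 1, ρ, β) l, fun k => k.elim z0 z,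
    ?_, ?_, ?_, b4.trans (sup_le (hd.le.trans (span_mono ?_)) (span_mono ?_)), ?_, ?_, ?_, ?_⟩
  · rintro (_ | k) c
    exacts [a1 c, (hd.mem k c).1]
  · rintro (_ | k)
    exacts [a2, hd.piece k]
  · rintro (_ | k) (_ | k') e c c' i j
    exacts [absurd rfl e, c3 _ _ _ _ _, (h.symm _ _).trans (c3 _ _ _ _ _),
      hd.orth k k' (fun e' => e (by rw [e'])) _ _ _ _]
  · rintro _ ⟨p, rfl⟩
    exact ⟨(some p.1, p.2), rfl⟩
  · rintro _ ⟨p, rfl⟩
    exact ⟨(none, p.2, p.1), rfl⟩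
  · rw [b3, hd.dim, Fintype.sum_option, add_comm]; rfl
  · rintro (_ | k) (_ | k') e1 e2 e3
    · rfl
    · exact absurd (c2 (a3 e1) k') (by simp at e3; omega)
    · exact absurd (c2 (a3 e2) k) (by simp at e3; omega)
    · rw [hd.b1 k k' e1 e2 e3]
  · rintro (_ | k) (_ | k') e1 e2 e3
    · simp at e3
    · have d1 := a2.val
      have d2 := (hd.piece k').val
      simp only [Option.elim, Val] at e1 e2 e3 d1 d2
      obtain ⟨j, hj⟩ : ∃ j, b = 2 * j + 3 := ⟨b / 2 - 1, by have := d1.2.1 e2; have := d1.2.2 e1; omega⟩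
      have d3 := fun v hv => a4 e1 e2 j hj v ((hW' v).1 hv).1 ((hW' v).1 hv).2
      have d4 := h.qf_add j (z k' true) (z k' false)
      rw [d3 _ (hd.mem _ _), d3 _ (hd.mem _ _), d3 _ (W'.add_mem (hd.mem _ _) (hd.mem _ _)),
        h.top (b := 2 * j + 2) (by
          rw [show 2 * j + 2 + 1 = (l k').1 by omega]; exact (hd.piece k').pw false)
        _ _ _ (by omega), (hd.piece k').cross, if_pos ⟨by
          by_contra d; have := d2.2.1 (by simpa using d); omega, by omega⟩] at d4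
      simp at d4
    · exact absurd (c1 k) (by simp at e3; omega)
    · exact hd.b2 k k' e1 e2 e3
  · rintro j v hv h0 h1 (_ | k)
    · refine ⟨fun e => (a5 j (by simpa using e) ⟨v, hv, h1⟩).1, fun e => ⟨fun e' => ?_, fun e' => ?_⟩⟩
      · obtain rfl : b = 2 * j + 2 := by simpa using e'
        exact h1 (a6 e j rfl v hv h0)
      · obtain rfl : b = 2 * j + 3 := by simpa using e'
        obtain ⟨v', d1, -, d2⟩ := c4 j v hv h0 (by omega)
        exact h1 (d2 ▸ a4 e (by have := a2.val.2.2 e; revert this; cases ρ <;> simp; omega) j rfl v'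
          d1.1 ((hW' _).1 d1).2)
    · rcases le_or_gt (2 * j + 2) b with e | e
      · obtain ⟨v', d1, d2, d3⟩ := c4 j v hv h0 e
        exact hd.flag j v' d1 d2 (d3 ▸ h1) k
      have := c1 k
      refine ⟨fun e' => ?_, fun _ => by simp; omega⟩
      have e1 : b = 2 * j + 1 := by simp at e'; omega
      rcases (a5 j e1 ⟨v, hv, h1⟩).2 with ⟨w, hw, d1, d2⟩ | d1
      · obtain ⟨v', d3, d4, d5⟩ := b5 j w hw (by simpa [e1] using hW w hw) d2
        exact (hd.flag j v' d3 d4 (d5 ▸ d1) k).1 e'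
      · exact absurd (c2 d1 k) (by simp at e'; omega)

end H64.Wall2
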