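import Mathlib
import Cfsg.Agent.Lib.Wall2.Dec
import Cfsg.Agent.Lib.Wall.Count

/-!
Wall's data for symplectic groups in characteristic two.
-/

set_option autoImplicit false

namespace H64.Wall2

open Module Finset Submodule Polynomial H64.CN H64.Wall H65
open scoped Classical

variable {F V : Type*} [Field F] [AddCommGroup V] [Module F V]
variable {B : LinearMap.BilinForm F V} {N x : End F V} {W : Submodule F V} {α : F}

theorem Piece.gram {V' : Type*} [AddCommGroup V'] [Module F V'] {B' : LinearMap.BilinForm F V'}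
    {N' : End F V'} (h : St B N) (h' : St B' N') {l : Lab} {z : Bool → V} {z' : Bool → V'}
    (hp : Piece B N α l z) (hp' : Piece B' N' α l z') (c c' : Bool) (i j : ℕ) :
    B ((N ^ i) (z c)) ((N ^ j) (z c')) = B' ((N' ^ i) (z' c)) ((N' ^ j) (z' c')) := by
  let g : Bool → Bool → ℕ → ℕ → F := fun c c' i j =>
    B ((N ^ i) (z c)) ((N ^ j) (z c')) - B' ((N' ^ i) (z' c)) ((N' ^ j) (z' c'))
  have h1 : ∀ c c' i j, g c c' (i + 1) j + g c c' i (j + 1) + g c c' (i + 1) (j + 1) = 0 :=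
    fun c c' i j => by
      have a1 := h.inv ((N ^ i) (z c)) ((N ^ j) (z c'))
      have a2 := h'.inv ((N' ^ i) (z' c)) ((N' ^ j) (z' c'))
      simp only [p1] at a1 a2
      linear_combination a1 - a2
  have h2 : ∀ c c' i j, g c c' i j = g c' c j i := fun c c' i j => by
    simp only [g]; rw [h.symm, h'.symm]
  have h3 : ∀ c i j, g c c i j = 0 := fun c => grid_diag (h1 c c) (h2 c c)
    (fun i => by simp [g, h.alt, h'.alt]) fun i => sub_eq_zero.2 ((hp.q c i).trans (hp'.q c i).symm)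
  have h4 : ∀ i j, g false true i j = 0 := grid_zero (a := l.1) (h1 _ _)
    (fun i => (h2 _ _ _ _).trans (sub_eq_zero.2 ((hp.cross i).trans (hp'.cross i).symm)))
    fun i j e => by simp [g, pow_zero_of_le (hp.pw _) e, pow_zero_of_le (hp'.pw _) e]
  rw [← sub_eq_zero]
  cases c <;> cases c'
  exacts [h3 _ i j, h4 i j, (h2 _ _ i j).trans (h4 j i), h3 _ i j]

/-- The data attached to an isometry. -/
def Has2 (B : LinearMap.BilinForm F V) (x : End F V) (α : F) (w : ℕ → F[X]) (m : Lab → ℕ) : Prop :=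
  ∃ (U U' : Submodule F V) (y : End F U') (ι : Type) (_ : Fintype ι) (l : ι → Lab)
    (z : ι → Bool → V), IsCompl U U' ∧ (∀ u ∈ U, x u ∈ U) ∧ (∀ v, (y v : V) = x v) ∧
    (∀ u ∈ U, ∀ v ∈ U', B u v = 0 ∧ B v u = 0) ∧ (∀ v, (y - 1) v = 0 → v = 0) ∧
    Dec B (x - 1) α U l z ∧ Has y w ∧ ∀ a, m a = #{k | l k = a}

theorem st_of (h2 : (2 : F) = 0) (ha : B.IsAlt) (hx : ∀ v w, B (x v) (x w) = B v w) :
    St B (x - 1) := ⟨h2, ha, fun v w => by simp [hx]⟩

theorem exists_has2 [FiniteDimensional F V] (h2 : (2 : F) = 0) (hs : ∀ c : F, ∃ w, w ^ 2 = c)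
    (hα : ∀ c : F, ∃ w, w ^ 2 + w + c = 0 ∨ w ^ 2 + w + c = α) (hB : B.Nondegenerate) (ha : B.IsAlt)
    (hx : ∀ v w, B (x v) (x w) = B v w) : ∃ w m, Has2 B x α w m := by
  obtain ⟨U, U', h1, h3, h4, h5, h6⟩ := fitting x (one_mul 1)
  rw [one_smul] at h5 h6
  obtain ⟨hU, hU'⟩ := h3 x (Commute.refl x)
  obtain ⟨ι, _, l, z, hd⟩ := (st_of h2 ha hx).exists_dec hs hα _ U rfl
    (fun v hv => U.sub_mem (hU v hv) hv) (fun v hv h => hB.2 v fun w => by
      obtain ⟨a, b, rfl, -⟩ := existsUnique_add_of_isCompl h1 w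
      simp [h a a.2, (h4 B hx v hv b b.2).2]) h5
  obtain ⟨w, hw⟩ := exists_has (x.restrict hU')
  exact ⟨w, _, U, U', _, ι, _, l, z, h1, hU, fun _ => rfl, h4 B hx,
    fun v hv => Subtype.ext (h6 _ v.2 (congrArg Subtype.val hv)), hd, hw, fun _ => rfl⟩

theorem Has2.conj [Finite F] [FiniteDimensional F V] (h2 : (2 : F) = 0) (hB : B.Nondegenerate)
    (ha : B.IsAlt) {x' : End F V} (hx : ∀ v w, B (x v) (x w) = B v w)
    (hx' : ∀ v w, B (x' v) (x' w) = B v w) {w : ℕ → F[X]} {m : Lab → ℕ} (h : Has2 B x α w m)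
    (h' : Has2 B x' α w m) :
    ∃ e : V ≃ₗ[F] V, (∀ v w, B (e v) (e w) = B v w) ∧ ∀ v, e (x v) = x' (e v) := by
  obtain ⟨U, U', y, ι, _, l, z, a1, a2, a3, a4, a5, a6, a7, a8⟩ := h
  obtain ⟨U₁, U₁', y₁, ι₁, _, l₁, z₁, b1, b2, b3, b4, b5, b6, b7, b8⟩ := h'
  let σ := Equiv.ofFiberEquiv (f := l) (g := l₁) fun a => Fintype.equivOfCardEq (by
    rw [Fintype.card_subtype, Fintype.card_subtype, ← a8, ← b8])
  have hσ : ∀ k, l₁ (σ k) = l k := Equiv.ofFiberEquiv_map _
  obtain ⟨e₀, c1⟩ := a7.similar b7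
  have c2 := H66.nondegenerate_restrict_of_isCompl B hB a1.symm fun u hu v hv => (a4 v hv u hu).symm
  have c3 := H66.nondegenerate_restrict_of_isCompl B hB b1.symm fun u hu v hv => (b4 v hv u hu).symm
  obtain ⟨g, c4, c5, c6⟩ := H66.exists_commute_equiv_forms ((B.restrict U₁').comp e₀ e₀)
    (B.restrict U') ⟨fun v h => e₀.map_eq_zero_iff.1 (c3.1 _ fun w => by simpa using h (e₀.symm w)),
      fun v h => e₀.map_eq_zero_iff.1 (c3.2 _ fun w => by simpa using h (e₀.symm w))⟩ c2 (ε := -1)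
    (fun v w => by simp [ha.neg_eq]) (fun v w => by simp [ha.neg_eq]) y
    (fun v w => by simp [c1, b3, hx']) (fun v w => by simp [a3, hx])
    (isUnit_sq_sub_one a5 fun v => by
      rw [show (-1 : F) = 1 by linear_combination -h2, one_smul]; exact a5 v)
  have c7 : ∀ {x : End F V} {U U' : Submodule F V} {ι : Type} [Fintype ι] {l : ι → Lab}
      {z : ι → Bool → V} {I J : Type _} (τ : I → ι × Bool × ℕ) (f : J → U'), IsCompl U U' →
      Dec B (x - 1) α U l z → τ.Surjective → f.Surjective → ⊤ ≤ span F (Set.range (Sum.elim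
        (fun p => ((x - 1) ^ (τ p).2.2) (z (τ p).1 (τ p).2.1)) fun v => (f v : V))) :=
    fun τ f h1 h2 h3 h4 => by
      rw [← h1.sup_eq_top, Set.Sum.elim_range, span_union]
      refine sup_le_sup (h2.le.trans (span_mono ?_)) fun v hv => ?_
      · rintro _ ⟨p, rfl⟩
        obtain ⟨p, rfl⟩ := h3 p
        exact ⟨p, rfl⟩
      · obtain ⟨v, h⟩ := h4 ⟨v, hv⟩
        exact subset_span ⟨v, congrArg Subtype.val h⟩
  have c8 := fun i k c => End.pow_apply_mem_of_forall_mem (f' := x - 1) i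
    (fun v hv => U.sub_mem (a2 v hv) hv) _ (a6.mem k c)
  have c9 := fun i k c => End.pow_apply_mem_of_forall_mem (f' := x' - 1) i
    (fun v hv => U₁.sub_mem (b2 v hv) hv) _ (b6.mem k c)
  obtain ⟨e, d1, d2⟩ := exists_equiv_of_gram (N := x - 1) (N' := x' - 1) hB.2 hB.2
    (c7 id id a1 a6 Function.surjective_id Function.surjective_id)
    (c7 (Prod.map σ id) (e₀ ∘ g) b1 b6 (σ.surjective.prodMap Function.surjective_id)
      (e₀.surjective.comp ((End.isUnit_iff _).1 c4).2)) (by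
      rintro (⟨k, c, i⟩ | v) (⟨k', c', j⟩ | v')
      · by_cases e : k = k'
        · subst e
          exact (a6.piece k).gram (st_of h2 ha hx) (st_of h2 ha hx') (hσ k ▸ b6.piece (σ k)) _ _ _ _
        · exact (a6.orth k k' e _ _ _ _).trans (b6.orth _ _ (σ.injective.ne e) _ _ _ _).symm
      · exact (a4 _ (c8 _ _ _) _ v'.2).1.trans (b4 _ (c9 _ _ _) _ (e₀ (g v')).2).1.symm
      · exact (a4 _ (c8 _ _ _) _ v.2).2.trans (b4 _ (c9 _ _ _) _ (e₀ (g v)).2).2.symm
      · exact (c6 v v').symm)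
    (Sum.map (fun p => (p.1, p.2.1, p.2.2 + 1)) (y - 1 :)) (by
      rintro (p | v)
      · exact p1 _ _
      · simp [a3]) (by
      rintro (p | v)
      · exact p1 _ _
      · simp [← b3, ← c1, ← End.mul_apply y, c5.eq])
  exact ⟨e, d1, fun v => by simpa using d2 v⟩

/-- Wall's data in characteristic two. -/
structure WD2 (n : ℕ) (w : ℕ → F[X]) (m : Lab → ℕ) : Prop where
  pal : ∀ k, Pal (w k)
  ev : ∀ k, (w k).eval 1 ≠ 0
  zero : w 0 = 1
  val : ∀ l, m l ≠ 0 → Val l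
  b1 : ∀ a ρ, m (a, ρ, true) ≤ 1
  b2 : ∀ a ρ β, m (a + 1, false, true) ≠ 0 → m (a, ρ, β) = 0
  fl : ∀ a β, m (a, false, β) ≠ 0 → ∀ ρ, m (a, true, ρ) = 0 ∧ m (a + 1, ρ, true) = 0 ∧
    m (a + 2, ρ, true) = 0
  sum : ∀ M, n < M → ∑ k ∈ range M, k * ((w k).natDegree + (2 * (m (k, true, false) +
    m (k, true, true)) + (m (k, false, false) + m (k, false, true)))) = n

theorem pal_of_du (h2 : (2 : F) = 0) {w : F[X]} (hm : w.Monic) (h1 : du (RingHom.id F) w = w)
    (h : w.eval 1 ≠ 0) : Pal w := by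
  have h4 : w.coeff 0 = 1 := by
    have := congrArg (aeval (1 : F)) h1
    rw [du_apply, map_mul, Polynomial.map_id, H72.Cls.aeval_reverse (one_mul 1), aeval_C,
      coe_aeval_eq_eval, mul_left_comm] at this
    simpa using (mul_eq_left₀ h).1 this
  have h5 : w.reverse = w := by simpa [du_apply, h4] using h1
  refine ⟨hm, h5, by_contra fun h6 => h ?_⟩
  simp only [eval_eq_sum_range, one_pow, mul_one]
  refine sum_involution (fun i _ => w.natDegree - i) (fun i hi => ?_) (fun i hi _ e => h6 ⟨i, ?_⟩)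
    (fun i hi => ?_) fun i hi => ?_ <;> have := mem_range.1 hi
  · rw [← revAt_le (by omega), ← coeff_reverse, h5]
    linear_combination w.coeff i * h2
  · omega
  · exact mem_range.2 (by omega)
  · omega

theorem Has2.wd [Finite F] [FiniteDimensional F V] (h2 : (2 : F) = 0) (hB : B.Nondegenerate)
    (ha : B.IsAlt) (hx : ∀ v w, B (x v) (x w) = B v w) {w : ℕ → F[X]} {m : Lab → ℕ}
    (h : Has2 B x α w m) : WD2 (finrank F V) w m := by
  obtain ⟨U, U', y, ι, _, l, z, a1, a2, a3, a4, a5, a6, a7, a8⟩ := h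
  have c1 : Good (-1) y (B.restrict U') := ⟨H66.nondegenerate_restrict_of_isCompl B hB a1.symm
    fun u hu v hv => (a4 v hv u hu).symm, fun v w => by simp [ha.neg_eq], fun v w => by simp [a3, hx]⟩
  have c2 := a7.isD ((LinearMap.isUnit_iff_isUnit_det _).1 c1.isUnit).ne_zero
  have c3 : ∀ k, (w k).eval 1 ≠ 0 := fun k => by
    have := card_eq_rootMultiplicity a7 (one_mul 1) (d := Fin.elim0) (by simp) (fun j => by
      rw [one_smul, LinearMap.ker_eq_bot.2 (End.iterate_injective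
        ((injective_iff_map_eq_zero _).2 a5) j)]; simp) k
    exact fun h => (a7.monic k).ne_zero (rootMultiplicity_eq_zero_iff.1 this.symm h)
  have c4 : ∀ a, m a ≠ 0 → ∃ k, l k = a := fun a h => by
    obtain ⟨k, hk⟩ := card_ne_zero.1 (a8 a ▸ h)
    exact ⟨k, (mem_filter.1 hk).2⟩
  have c5 : ∀ a, (∀ k, l k ≠ a) → m a = 0 := fun a h => by_contra fun h' => by
    obtain ⟨k, hk⟩ := c4 a h'
    exact h k hk
  refine ⟨fun k => pal_of_du h2 (a7.monic k) (c1.du_eq a7 k) (c3 k), c3, a7.zero, fun a h => ?_,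
    fun a ρ => ?_, fun a ρ β h => c5 _ fun k' e => ?_, fun a β h ρ => ?_, fun M hM => ?_⟩
  · obtain ⟨k, rfl⟩ := c4 a h
    exact (a6.piece k).val
  · refine a8 _ ▸ card_le_one.2 fun k hk k' hk' => ?_
    have b1 := (mem_filter.1 hk).2
    have b2 := (mem_filter.1 hk').2
    exact a6.b1 k k' (by rw [b1]) (by rw [b2]) (by rw [b1, b2])
  · obtain ⟨k, hk⟩ := c4 _ h
    exact a6.b2 k k' (by rw [hk]) (by rw [hk]) (by rw [hk, e])
  · obtain ⟨k, hk⟩ := c4 _ h
    have b1 := hk ▸ a6.piece k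
    obtain ⟨j, rfl⟩ : ∃ j, a = 2 * j + 2 := ⟨a / 2 - 1, by have := b1.val; simp [Val] at this; omega⟩
    have b2 := a6.flag j _ (a6.mem k true) (b1.pw true) (by simp [b1.q, fq])
    exact ⟨c5 _ fun k' e => by simpa [e] using b2 k', c5 _ fun k' e => by simpa [e] using b2 k',
      c5 _ fun k' e => by simpa [e] using b2 k'⟩
  · have b1 := finrank_add_eq_of_isCompl a1
    simp only [mul_add _ (natDegree _), sum_add_distrib]
    rw [c2.sum M (by omega), ← b1, add_comm, add_left_inj, a6.dim, ← sum_fiberwise_of_maps_to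
      (g := l) (t := range M ×ˢ univ) fun k _ => mem_product.2 ⟨mem_range.2 ?_, mem_univ _⟩,
      sum_product]
    · refine sum_congr rfl fun a _ => ?_
      rw [sum_congr rfl (g := fun p : Bool × Bool => m (a, p) * (a * if p.1 then 2 else 1))
        fun p _ => by
          rw [a8, sum_congr rfl (g := fun _ => a * if p.1 then 2 else 1) fun k hk => by
            rw [(mem_filter.1 hk).2], sum_const, smul_eq_mul]]
      simp [Fintype.sum_prod_type]; ring
    · have := single_le_sum (f := fun k => (l k).1 * (if (l k).2.1 then 2 else 1))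
        (fun _ _ => Nat.zero_le _) (mem_univ k)
      rw [← a6.dim] at this
      split_ifs at this <;> omega

theorem exists_data [Finite F] [FiniteDimensional F V] (h2 : (2 : F) = 0) (hB : B.Nondegenerate)
    (ha : B.IsAlt) {G : Type*} [Group G] (ρ : G →* End F V)
    (hρ : Function.Injective ρ) (h1 : ∀ g v w, B (ρ g v) (ρ g w) = B v w)
    (h3 : ∀ f : End F V, (∀ v w, B (f v) (f w) = B v w) → ∃ g, ρ g = f) :
    ∃ (w : ConjClasses G → ℕ → F[X]) (m : ConjClasses G → Lab → ℕ),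
      (∀ C C', w C = w C' → m C = m C' → C = C') ∧ ∀ C, WD2 (finrank F V) (w C) (m C) := by
  obtain ⟨α, hα⟩ : ∃ α : F, ∀ c : F, ∃ w, w ^ 2 + w + c = 0 ∨ w ^ 2 + w + c = α := by
    by_cases h : ∀ c : F, ∃ w, w ^ 2 + w + c = 0
    · exact ⟨0, fun c => (h c).imp fun _ => Or.inl⟩
    push Not at h
    obtain ⟨α, h⟩ := h
    refine ⟨α, fun c => by_contra fun h' => ?_⟩
    push Not at h'
    obtain ⟨t, ht⟩ := H66.exists_artinSchreier_add h2 (fun t => (h' t).1) h
    exact (h' t).2 (by linear_combination ht - α * h2)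
  choose o ho using fun C : ConjClasses G => ConjClasses.mk_surjective C
  choose w m h using fun C => exists_has2 h2 (H28.exists_sq_eq_of_two_eq_zero h2) hα hB ha (h1 (o C))
  refine ⟨w, m, fun C C' e e' => ?_, fun C => (h C).wd h2 hB ha (h1 _)⟩
  obtain ⟨e, a1, a2⟩ := (h C).conj h2 hB ha (h1 _) (h1 _) (e ▸ e' ▸ h C')
  obtain ⟨k, hk⟩ := h3 e a1
  rw [← ho C, ← ho C', ConjClasses.mk_eq_mk_iff_isConj, isConj_iff]
  exact ⟨k, mul_inv_eq_iff_eq_mul.2 (hρ (LinearMap.ext fun v => by simpa [hk] using a2 v))⟩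

end H64.Wall2
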