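import Mathlib
import Cfsg.Agent.Lib.Wall2.Data
import Cfsg.Agent.Lib.Wall.Sp

/-!
The number of conjugacy classes of the symplectic groups in characteristic two.
-/

set_option autoImplicit false

namespace H64.Wall2

open Module Finset Polynomial H64.CN H64.Wall
open scoped Classical

/-- The state of the chain before level `k`. -/
def sta (φ : ℕ → ℕ × ℕ) : ℕ → Prop
  | 0 => True
  | k + 1 => (φ k).1 ≠ 0

theorem chain_le {α : Type*} (A : Finset (ℕ × ℕ)) (w : ℕ → ℕ × ℕ → ℝ) (lam : ℕ → Prop → ℝ) {C : ℝ}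
    (hC : 0 ≤ C) (hw : ∀ k a, 0 ≤ w k a) (hl : ∀ k s, 0 ≤ lam k s)
    (hlam : ∀ k s, ∑ a ∈ A with s → a.2 = 0, w k a * lam (k + 1) (a.1 ≠ 0) ≤ lam k s)
    (T : Finset α) (φ : α → ℕ → ℕ × ℕ) (hA : ∀ t ∈ T, ∀ k, φ t k ∈ A ∧ (sta (φ t) k → (φ t k).2 = 0))
    (M : ℕ) (h : ∀ t0 ∈ T, ∀ U ⊆ T, (∀ t ∈ U, ∀ k < M, φ t k = φ t0 k) →
      #U ≤ C * (∏ k ∈ range M, w k (φ t0 k)) * lam M (sta (φ t0) M)) : #T ≤ C * lam 0 True := by
  induction M with
  | zero =>
    rcases T.eq_empty_or_nonempty with rfl | ⟨t0, ht0⟩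
    · simpa using mul_nonneg hC (hl 0 True)
    · simpa [sta] using h t0 ht0 T subset_rfl (by simp)
  | succ M ih =>
    refine ih fun t0 ht0 U hU hU' => le_trans ?_ (mul_le_mul_of_nonneg_left (hlam M _)
      (mul_nonneg hC (prod_nonneg fun _ _ => hw _ _)))
    rw [card_eq_sum_card_fiberwise (f := fun t => φ t M) (t := {a ∈ A | sta (φ t0) M → a.2 = 0})
      fun t ht => mem_coe.2 (mem_filter.2 ⟨(hA t (hU ht) M).1, fun h' => (hA t (hU ht) M).2 (by
        rcases M with _ | M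
        · trivial
        · rwa [sta, hU' t ht M M.lt_succ_self])⟩), Nat.cast_sum, mul_sum]
    refine sum_le_sum fun a _ => ?_
    rcases ({t ∈ U | φ t M = a} : Finset α).eq_empty_or_nonempty with h1 | ⟨t1, ht1⟩
    · rw [h1, card_empty, Nat.cast_zero]
      exact mul_nonneg (mul_nonneg hC (prod_nonneg fun _ _ => hw _ _)) (mul_nonneg (hw _ _) (hl _ _))
    obtain ⟨a1, rfl⟩ := mem_filter.1 ht1
    refine (h t1 (hU a1) _ ((filter_subset _ _).trans hU) fun t ht k hk => ?_).trans (le_of_eq ?_)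
    · rcases (Nat.lt_succ_iff.1 hk).eq_or_lt with rfl | hk
      exacts [(mem_filter.1 ht).2, (hU' t (mem_filter.1 ht).1 k hk).trans (hU' t1 a1 k hk).symm]
    · rw [prod_range_succ, prod_congr rfl fun k hk => by rw [hU' t1 a1 k (mem_range.1 hk)], sta]
      ring

/-- The weight of a letter. -/
def wt (j : ℕ) (a : ℕ × ℕ) : ℕ := (j + 1) * a.1 + if a.1 = 0 then (2 * j + 1) * a.2 else 0

/-- The potential function. -/
noncomputable def lam (j : ℕ) (s : Prop) : ℝ :=
  if 6 ≤ j then 1 + 4.15 * 2⁻¹ ^ (j + 1) else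
    if s then ([4.38705, 2.12681, 1.46023, 1.20841, 1.0995, 1.04881] : List ℝ).getD j 0
    else ([7.37813, 2.79194, 1.67048, 1.29029, 1.13539, 1.0657] : List ℝ).getD j 0

theorem lam_le (k : ℕ) (s : Prop) : ∑ a ∈ range 3 ×ˢ range 2 with s → a.2 = 0,
    (2⁻¹ : ℝ) ^ wt k a * lam (k + 1) (a.1 ≠ 0) ≤ lam k s := by
  rw [sum_filter, sum_product]
  rcases lt_or_ge k 6 with h | h
  · by_cases hs : s <;> interval_cases k <;> simp [sum_range_succ, wt, lam, hs] <;> norm_num
  have h1 : (2⁻¹ : ℝ) ^ (k + 1) ≤ 2⁻¹ ^ 7 := pow_le_pow_of_le_one (by positivity) (by norm_num) (by omega)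
  have h2 : (0 : ℝ) < 2⁻¹ ^ (k + 1) := by positivity
  have h3 : (2⁻¹ : ℝ) ^ (2 * k + 1) = 2 * (2⁻¹ ^ (k + 1)) ^ 2 := by ring
  simp only [sum_range_succ, wt, lam, if_pos h, if_pos (show 6 ≤ k + 1 by omega), pow_succ _ (k + 1)]
  by_cases hs : s <;> simp [hs, h3, pow_mul, -inv_pow] <;> generalize (2⁻¹ : ℝ) ^ (k + 1) = y at * <;>
    nlinarith [mul_pos h2 h2]

theorem one_le_lam (k : ℕ) (s : Prop) : 1 ≤ lam k s := by
  rcases lt_or_ge k 6 with h | h
  · by_cases hs : s <;> interval_cases k <;> simp [lam, hs] <;> norm_num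
  · rw [lam, if_pos h]
    exact le_add_of_nonneg_right (by positivity)

theorem num_geom2 (M : ℕ) : ∏ k ∈ Ico 2 M, (1 - 2 * (2⁻¹ : ℝ) ^ k)⁻¹ ≤ 3.4635 := by
  refine (prod_le_num (fun y => (1 - 2 * y)⁻¹) _ _ 4.1 (by positivity) le_rfl (by norm_num)
    (by norm_num) (show 2 ≤ 12 by norm_num) (fun y z hy hz hz' =>
      ⟨(one_le_inv₀ (by linarith)).2 (by linarith), inv_anti₀ (by linarith) (by linarith)⟩)
    (fun y hy hy' => by
      rw [inv_mul_le_iff₀ (by linarith)]
      nlinarith) M).trans ?_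
  simp only [prod_Ico_eq_prod_range, prod_range_succ, prod_range_zero]
  norm_num

variable {F : Type*} [Field F] [Fintype F]

theorem card_H_le {α : Type*} (T : Finset α) (H : α → ℕ → F[X]) {M m : ℕ} (hM : 2 ≤ M)
    (hH : ∀ t ∈ T, ∀ k, Pal (H t k))
    (hi : ∀ t ∈ T, ∀ t' ∈ T, (∀ k ∈ Ico 1 M, H t k = H t' k) → t = t')
    (hd : ∀ t ∈ T, ∑ k ∈ Ico 1 M, k * (H t k).natDegree = 2 * m) :
    (#T : ℝ) ≤ 3.4635 * Fintype.card F ^ m := by
  set q := Fintype.card F
  have hq' : (2 : ℝ) ≤ q := by exact_mod_cast Fintype.one_lt_card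
  have h1 : ∀ j, (#{l ∈ (finite_pal (F := F) (2 * m)).toFinset | l.natDegree / 2 = j} : ℝ) ≤ q ^ j :=
    fun j => by
      exact_mod_cast card_pal_le _ j fun p hp => by
        have := ((Set.Finite.mem_toFinset _).1 (mem_filter.1 hp).1).1
        exact ⟨this, by rw [← (mem_filter.1 hp).2, Nat.two_mul_div_two_of_even this.ev]⟩
  have h2 : ∀ t ∈ T, ∀ k ∈ Ico 1 M, H t k ∈ (finite_pal (F := F) (2 * m)).toFinset := fun t ht k hk =>
    (Set.Finite.mem_toFinset _).2 ⟨hH t ht k, (Nat.le_mul_of_pos_left _ (mem_Ico.1 hk).1).trans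
      (hd t ht ▸ single_le_sum (f := fun k => k * (H t k).natDegree) (fun _ _ => Nat.zero_le _) hk)⟩
  have := count_le (Ico 2 M) (i0 := 1) (fun _ => (finite_pal (F := F) (2 * m)).toFinset)
    (fun k l => k * (l.natDegree / 2)) (x := (q : ℝ)⁻¹) (C := 1) (by positivity) m (fun j => by
      simpa [← div_eq_mul_inv, div_le_one (show (0 : ℝ) < q ^ j by positivity)] using h1 j) T H
    (fun t ht t' ht' e1 e2 => hi t ht t' ht' fun k hk => by
      rcases (mem_Ico.1 hk).1.eq_or_lt with rfl | h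
      exacts [e1, e2 k (mem_Ico.2 ⟨h, (mem_Ico.1 hk).2⟩)])
    (fun t ht => h2 t ht 1 (by simp; omega))
    (fun t ht k hk => h2 t ht k (Ico_subset_Ico_left (by omega) hk)) fun t ht => by
      have := hd t ht
      rw [sum_congr rfl (g := fun k => 2 * (k * ((H t k).natDegree / 2))) fun k _ => by
        rw [mul_left_comm, Nat.two_mul_div_two_of_even (hH t ht k).ev], ← mul_sum,
        sum_eq_sum_Ico_succ_bot (by omega), one_add_one_eq_two] at this
      omega
  rw [inv_pow, ← div_eq_mul_inv, div_le_iff₀ (by positivity), one_mul] at this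
  refine this.trans (mul_le_mul_of_nonneg_right (le_trans (prod_le_prod
    (fun _ _ => by positivity) fun k hk => ?_) (num_geom2 M)) (by positivity))
  obtain ⟨k, rfl⟩ : ∃ j, k = j + 1 + 1 := ⟨k - 2, by have := (mem_Ico.1 hk).1; omega⟩
  have a1 : (q : ℝ) * (q : ℝ)⁻¹ ^ (k + 1 + 1) ≤ 2 * 2⁻¹ ^ (k + 1 + 1) := by
    rw [pow_succ', pow_succ' (2⁻¹ : ℝ), mul_inv_cancel_left₀ (by positivity),
      mul_inv_cancel_left₀ (by positivity)]
    gcongr
  have a2 : (2 : ℝ) * 2⁻¹ ^ (k + 1 + 1) < 1 := by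
    rw [pow_succ', mul_inv_cancel_left₀ (by positivity)]
    exact pow_lt_one₀ (by positivity) (by norm_num) k.succ_ne_zero
  simp only [pow_mul]
  refine sum_pow_le _ (fun p : F[X] => p.natDegree / 2) (fun j => q ^ j) (by positivity) h1 fun N => ?_
  simp only [← mul_pow]
  exact (geom_le (by positivity) (a1.trans_lt a2) N).trans (inv_anti₀ (by linarith) (by linarith))

/-- The letter at level `j`. -/
def lt (m : Lab → ℕ) (j : ℕ) : ℕ × ℕ :=
  (if m (2 * j + 2, false, false) + m (2 * j + 2, false, true) = 0 then 0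
    else 2 - (m (2 * j + 2, false, false) + m (2 * j + 2, false, true)) % 2,
   m (2 * j + 1, true, true) + m (2 * j + 2, false, true))

/-- The multiplicity absorbed in the polynomial of level `k`. -/
def ab (m : Lab → ℕ) (k : ℕ) : ℕ := m (k, true, false) +
  if k % 2 = 1 then (if (lt m (k / 2)).1 = 0 then 0 else m (k, true, true))
  else (m (k, false, false) + m (k, false, true) - (lt m (k / 2 - 1)).1) / 2

theorem ab_odd (m : Lab → ℕ) (j : ℕ) : ab m (2 * j + 1) = m (2 * j + 1, true, false) +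
    if (lt m j).1 = 0 then 0 else m (2 * j + 1, true, true) := by
  rw [ab, if_pos (by omega), show (2 * j + 1) / 2 = j by omega]

theorem ab_even (m : Lab → ℕ) (j : ℕ) : ab m (2 * j + 2) = m (2 * j + 2, true, false) +
    (m (2 * j + 2, false, false) + m (2 * j + 2, false, true) - (lt m j).1) / 2 := by
  rw [ab, if_neg (by omega), show (2 * j + 2) / 2 - 1 = j by omega]

omit [Fintype F] in
theorem WD2.facts {n : ℕ} {w : ℕ → F[X]} {m : Lab → ℕ} (h : WD2 n w m) (j : ℕ) :
    (∀ β, m (2 * j + 1, false, β) = 0) ∧ m (2 * j + 2, true, true) = 0 ∧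
    m (2 * j + 1, true, true) ≤ 1 ∧ m (2 * j + 2, false, true) ≤ 1 ∧
    (m (2 * j + 2, false, true) = 0 ∨
      m (2 * j + 1, true, true) = 0 ∧ m (2 * j + 1, true, false) = 0) ∧
    (m (2 * j + 2, false, false) + m (2 * j + 2, false, true) = 0 ∨
      m (2 * j + 2, true, false) = 0 ∧ (lt m (j + 1)).2 = 0) := by
  refine ⟨fun β => by_contra fun e => ?_, by_contra fun e => ?_, h.b1 _ _, h.b1 _ _,
    or_iff_not_imp_left.2 fun e => ⟨h.b2 _ _ _ e, h.b2 _ _ _ e⟩, or_iff_not_imp_left.2 fun e => ?_⟩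
  · have := h.val _ e; simp [Val] at this
  · have := h.val _ e; simp [Val] at this
  · obtain ⟨β, e⟩ : ∃ β, m (2 * j + 2, false, β) ≠ 0 := by
      by_contra! e'; simp [e'] at e
    exact ⟨(h.fl _ _ e _).1, Nat.add_eq_zero_iff.2 ⟨(h.fl _ _ e _).2.1, (h.fl _ _ e _).2.2⟩⟩

theorem sum_Ico_pairs (f : ℕ → ℕ) (M : ℕ) :
    ∑ k ∈ Ico 1 (2 * M + 1), f k = ∑ j ∈ range M, (f (2 * j + 1) + f (2 * j + 2)) := by
  induction M with
  | zero => simp
  | succ M ih =>
    rw [sum_range_succ, ← ih, mul_add_one, sum_Ico_succ_top (by omega), sum_Ico_succ_top (by omega),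
      add_assoc]

theorem count_sp {α : Type*} {T : Finset α} {w : α → ℕ → F[X]} {m : α → Lab → ℕ} {n : ℕ}
    (hW : ∀ t ∈ T, WD2 (2 * n) (w t) (m t))
    (hi : ∀ t ∈ T, ∀ t' ∈ T, w t = w t' → m t = m t' → t = t') :
    5 * #T ≤ 76 * Fintype.card F ^ n := by
  set q := Fintype.card F
  have hq' : (2 : ℝ) ≤ q := by exact_mod_cast Fintype.one_lt_card
  have h0 : ∀ t ∈ T, ∀ k p, k = 0 ∨ 2 * n < k → w t k = 1 ∧ m t (k, p) = 0 := fun t ht k p hk => by
    rcases hk with rfl | hk
    · exact ⟨(hW t ht).zero, by_contra fun e => by simpa [Val] using (hW t ht).val _ e⟩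
    have a1 := (hW t ht).sum (k + 1) (by omega)
    rw [sum_range_succ, (hW t ht).sum k hk, Nat.add_eq_left, mul_eq_zero] at a1
    refine ⟨((hW t ht).pal k).monic.natDegree_eq_zero.1 (by omega), ?_⟩
    obtain ⟨_ | _, _ | _⟩ := p <;> omega
  have h1 : ∀ t ∈ T, ∑ k ∈ Ico 1 (2 * (n + 1) + 1), k * (w t k * (X - C 1) ^ (2 * ab (m t) k)).natDegree
      + 2 * ∑ j ∈ range (n + 1), wt j (lt (m t) j) = 2 * n := fun t ht => by
    rw [← (hW t ht).sum (2 * (n + 1) + 1) (by omega), range_eq_Ico (2 * (n + 1) + 1),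
      sum_eq_sum_Ico_succ_bot (by omega) (a := 0), zero_mul, zero_add, zero_add, sum_Ico_pairs,
      sum_Ico_pairs, mul_sum, ← sum_add_distrib]
    refine sum_congr rfl fun j _ => ?_
    obtain ⟨a1, a2, -, -, a3, -⟩ := (hW t ht).facts j
    simp only [((hW t ht).pal _).monic.natDegree_mul ((monic_X_sub_C _).pow _), natDegree_pow,
      natDegree_X_sub_C, ab_odd, ab_even, a1, a2, wt]
    by_cases e : (lt (m t) j).1 = 0
    · have : m t (2 * j + 2, false, false) = 0 ∧ m t (2 * j + 2, false, true) = 0 := by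
        simp only [lt] at e; split_ifs at e <;> omega
      simp only [e, if_true]
      simp only [lt, this]
      ring
    · obtain ⟨c, hc⟩ : ∃ c, m t (2 * j + 2, false, false) + m t (2 * j + 2, false, true) =
          (lt (m t) j).1 + 2 * c := ⟨(m t (2 * j + 2, false, false) + m t (2 * j + 2, false, true) -
            (lt (m t) j).1) / 2, by simp only [lt]; split_ifs <;> omega⟩
      simp only [if_neg e, hc, Nat.add_sub_cancel_left, Nat.mul_div_cancel_left _ two_pos]
      ring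
  have := chain_le (range 3 ×ˢ range 2) (fun k a => 2⁻¹ ^ wt k a) lam (C := 3.4635 * q ^ n)
    (by positivity) (fun _ _ => by positivity) (fun k s => zero_le_one.trans (one_le_lam k s)) lam_le
    T (fun t => lt (m t)) (fun t ht k => ⟨?_, fun e => ?_⟩) (n + 1) fun t0 ht0 U hU hU' => ?_
  · have h : (0 : ℝ) ≤ q ^ n := by positivity
    simp only [lam] at this
    norm_num at this
    exact_mod_cast (by linarith : (5 : ℝ) * #T ≤ 76 * q ^ n)
  · have := (hW t ht).facts k
    simp only [lt, mem_product, mem_range]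
    split_ifs <;> omega
  · rcases k with _ | k
    · refine Nat.add_eq_zero_iff.2 ⟨by_contra fun e => ?_, by_contra fun e => ?_⟩ <;>
        simpa [Val] using (hW t ht).val _ e
    · exact (((hW t ht).facts k).2.2.2.2.2.resolve_left fun e' => e (if_pos e')).2
  obtain ⟨r, hr⟩ : ∃ r, n = r + ∑ j ∈ range (n + 1), wt j (lt (m t0) j) :=
    Nat.exists_eq_add_of_le' (by have := h1 t0 ht0; omega)
  refine le_trans (card_H_le U (fun t k => w t k * (X - C 1) ^ (2 * ab (m t) k)) (m := r)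
    (show 2 ≤ 2 * (n + 1) + 1 by omega) (fun t ht k => ((hW t (hU ht)).pal k).mul (pal_pow (one_mul 1) _))
    (fun t ht t' ht' e => ?_) fun t ht => ?_) (le_trans ?_ (le_mul_of_one_le_right (by positivity)
      (one_le_lam _ _)))
  · have a1 : ∀ k ∈ Ico 1 (2 * (n + 1) + 1), ab (m t) k = ab (m t') k := fun k hk => by
      have key : ∀ t ∈ T, rootMultiplicity 1 (w t k * (X - C 1) ^ (2 * ab (m t) k)) =
          2 * ab (m t) k := fun t ht => by
        rw [rootMultiplicity_mul_X_sub_C_pow ((hW t ht).pal k).monic.ne_zero,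
          rootMultiplicity_eq_zero ((hW t ht).ev k), zero_add]
      have := key t (hU ht)
      rw [e k hk, key t' (hU ht')] at this
      omega
    refine hi t (hU ht) t' (hU ht') (funext fun k => ?_) (funext fun ⟨k, p⟩ => ?_) <;>
      by_cases hk : k = 0 ∨ 2 * n < k
    · rw [(h0 t (hU ht) k default hk).1, (h0 t' (hU ht') k default hk).1]
    · have := e k (by simp; omega)
      simp only [a1 k (by simp; omega)] at this
      exact mul_right_cancel₀ ((monic_X_sub_C _).pow _).ne_zero this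
    · rw [(h0 t (hU ht) k p hk).2, (h0 t' (hU ht') k p hk).2]
    obtain ⟨j, hj⟩ : ∃ j, k = 2 * j + 1 ∨ k = 2 * j + 2 := ⟨(k - 1) / 2, by omega⟩
    have a2 := a1 (2 * j + 1) (by simp; omega)
    have a3 := a1 (2 * j + 2) (by simp; omega)
    have a4 := (hU' t ht j (by omega)).trans (hU' t' ht' j (by omega)).symm
    obtain ⟨b1, b2, b3, b4, b5, b6⟩ := (hW t (hU ht)).facts j
    obtain ⟨c1, c2, c3, c4, c5, c6⟩ := (hW t' (hU ht')).facts j
    simp only [ab_odd, ab_even, lt, Prod.mk.injEq] at a2 a3 a4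
    have b7 := b1 true
    have c7 := c1 true
    replace b1 := b1 false
    replace c1 := c1 false
    obtain ⟨_ | _, _ | _⟩ := p <;> rcases hj with rfl | rfl <;> split_ifs at a2 a3 a4 <;> omega
  · have := h1 t (hU ht)
    rw [sum_congr (s₁ := range _) rfl fun j hj => by rw [hU' t ht j (mem_range.1 hj)]] at this
    omega
  · rw [prod_pow_eq_pow_sum, mul_assoc]
    generalize ∑ j ∈ range (n + 1), wt j (lt (m t0) j) = s at hr
    rw [hr, pow_add, mul_assoc, ← mul_pow]
    exact mul_le_mul_of_nonneg_left (le_mul_of_one_le_right (by positivity)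
      (one_le_pow₀ (by linarith))) (by norm_num)

theorem two_eq_of_even (h : Even (Fintype.card F)) : (2 : F) = 0 := by
  have := ringChar.Nat.cast_ringChar (R := F)
  rw [FiniteField.even_card_iff_char_two.2 (Nat.even_iff.1 h)] at this
  exact_mod_cast this

theorem card_le {V : Type*} [AddCommGroup V] [Module F V] [FiniteDimensional F V]
    {B : LinearMap.BilinForm F V} (h2 : (2 : F) = 0) (hB : B.Nondegenerate)
    (ha : B.IsAlt) {G : Type*} [Group G] [Finite G] (ρ : G →* End F V)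
    (hρ : Function.Injective ρ) (h1 : ∀ g v w, B (ρ g v) (ρ g w) = B v w)
    (h3 : ∀ f : End F V, (∀ v w, B (f v) (f w) = B v w) → ∃ g, ρ g = f) {n : ℕ}
    (hn : finrank F V = 2 * n) : 5 * Nat.card (ConjClasses G) ≤ 76 * Fintype.card F ^ n := by
  have : Finite (ConjClasses G) := Quotient.finite _
  have := Fintype.ofFinite (ConjClasses G)
  obtain ⟨w, m, a1, a2⟩ := exists_data h2 hB ha ρ hρ h1 h3
  rw [Nat.card_eq_fintype_card, ← card_univ]
  exact count_sp (fun C _ => hn ▸ a2 C) fun C _ C' _ => a1 C C'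

theorem card_sp_le (h : Even (Fintype.card F)) (n : ℕ) :
    5 * Nat.card (ConjClasses (Matrix.symplecticGroup (Fin n) F)) ≤ 76 * Fintype.card F ^ n :=
  card_le (two_eq_of_even h) (H66.sympBilin_nondegenerate n) (H66.sympBilin_isAlt n)
    { toFun := fun g : Matrix.symplecticGroup (Fin n) F => Matrix.toLin' g.1
      map_one' := Matrix.toLin'_one
      map_mul' := fun g h => Matrix.toLin'_mul _ _ }
    (fun g h e => Subtype.ext (Matrix.toLin'.injective e))
    (fun g => (H66.mem_symplecticGroup_iff _).1 g.2) (fun f hf => by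
      obtain ⟨A, rfl⟩ := Matrix.toLin'.surjective f
      exact ⟨⟨A, (H66.mem_symplecticGroup_iff _).2 hf⟩, rfl⟩) (by simp [two_mul])

end H64.Wall2
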