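import Mathlib
import Cfsg.Agent.Lib.Wall2.Count
import Cfsg.Agent.Lib.Wall.Orth

/-!
Gauss sums of quadratic forms in characteristic two, and fusion of orthogonal classes in the
symplectic group.
-/

set_option autoImplicit false

namespace H64.Wall2

open Module Finset Polynomial H65 H12 QuadraticMap
open scoped Classical

variable {F : Type*} [Field F]

/-- The quadratic character of the additive group. -/
noncomputable def psi (c : F) : ℤ := if ∃ a, a ^ 2 + a + c = 0 then 1 else -1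

theorem psi_add [Finite F] (h2 : (2 : F) = 0) (c d : F) : psi (c + d) = psi c * psi d := by
  have key : ∀ c d : F, (∃ a, a ^ 2 + a + c = 0) → (∃ a, a ^ 2 + a + d = 0) →
      ∃ a, a ^ 2 + a + (c + d) = 0 := fun c d ⟨a, ha⟩ ⟨b, hb⟩ =>
    ⟨a + b, by linear_combination ha + hb + a * b * h2⟩
  have e : ∀ c d : F, c + (c + d) = d := fun c d => by linear_combination c * h2
  unfold psi
  by_cases hc : ∃ a, a ^ 2 + a + c = 0 <;> by_cases hd : ∃ a, a ^ 2 + a + d = 0
  · simp [hc, hd, key c d hc hd]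
  · rw [if_pos hc, if_neg hd, if_neg fun h => hd (e c d ▸ key _ _ hc h), one_mul]
  · rw [if_neg hc, if_pos hd, if_neg fun h => hc (e d c ▸ key _ _ hd (add_comm c d ▸ h)), mul_one]
  · obtain ⟨t, ht⟩ := H66.exists_artinSchreier_add h2 (not_exists.1 hc) (not_exists.1 hd)
    rw [if_neg hc, if_neg hd, if_pos ⟨t, by rwa [← add_assoc]⟩]; rfl

theorem psi_sq [Finite F] (h2 : (2 : F) = 0) (c : F) : psi (c ^ 2) = psi c := by
  rw [show c ^ 2 = (c ^ 2 + c) + c by linear_combination -c * h2, psi_add h2, psi,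
    if_pos ⟨c, by linear_combination (c ^ 2 + c) * h2⟩, one_mul]

theorem psi_zero : psi (0 : F) = 1 := if_pos ⟨0, by simp⟩

theorem exists_psi [Finite F] (h2 : (2 : F) = 0) : ∃ α : F, psi α = -1 := by
  by_contra! h
  have : Function.Surjective fun t : F => t ^ 2 + t := fun c => by
    obtain ⟨a, ha⟩ : ∃ a, a ^ 2 + a + c = 0 := by_contra fun h' => h c (if_neg h')
    exact ⟨a, by linear_combination ha - c * h2⟩
  exact zero_ne_one (Finite.injective_iff_surjective.2 this
    (show (0 : F) ^ 2 + 0 = 1 ^ 2 + 1 by linear_combination -h2))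

variable {V W : Type*} [AddCommGroup V] [Module F V] [AddCommGroup W] [Module F W]

theorem sum_psi [Finite F] [Fintype V] (h2 : (2 : F) = 0) (f : V →ₗ[F] F) :
    ∑ v, psi (f v) = if f = 0 then Fintype.card V else 0 := by
  split_ifs with hf
  · simp [hf, psi_zero]
  obtain ⟨α, hα⟩ := exists_psi h2
  obtain ⟨w, rfl⟩ := LinearMap.surjective hf α
  have := Equiv.sum_comp (Equiv.addRight w) fun v => psi (f v)
  simp only [Equiv.coe_addRight, map_add, psi_add h2, hα, mul_neg, mul_one, sum_neg_distrib] at this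
  omega

/-- The Gauss sum. -/
noncomputable def gs [Fintype V] (Q : QuadraticForm F V) : ℤ := ∑ v, psi (Q v)

variable [Finite F] [Fintype V] [Fintype W] {Q Q' : QuadraticForm F V}

omit [Finite F] in
theorem gs_comp {Q' : QuadraticForm F W} (e : V ≃ W) (h : ∀ v, Q' (e v) = Q v) : gs Q = gs Q' := by
  simp only [gs, ← h]
  exact Equiv.sum_comp e fun v => psi (Q' v)

theorem gs_shift (h2 : (2 : F) = 0) {a : V} (h : ∀ v, Q' v = Q v + polar Q a v ^ 2) :
    gs Q' = psi (Q a) * gs Q := by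
  rw [gs, gs, ← Equiv.sum_comp (Equiv.addLeft a) fun v => psi (Q v), mul_sum]
  refine sum_congr rfl fun v _ => ?_
  rw [h, psi_add h2, psi_sq h2, ← psi_add h2, ← psi_add h2, Equiv.coe_addLeft, Q_add]
  congr 1
  linear_combination -Q a * h2

theorem gs_mul_self (h2 : (2 : F) = 0) (hQ : Nondeg Q) : gs Q * gs Q = Fintype.card V := by
  have : ∀ v, psi (Q v) * gs Q = ∑ w, psi (Q w) * psi (polarBilin Q w v) := fun v => by
    rw [gs, ← Equiv.sum_comp (Equiv.addRight v) fun w => psi (Q w), mul_sum]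
    refine sum_congr rfl fun w _ => ?_
    rw [← psi_add h2, ← psi_add h2, Equiv.coe_addRight, Q_add, polarBilin_apply_apply]
    congr 1
    linear_combination Q v * h2
  rw [gs, sum_mul, ← gs]
  simp only [this]
  rw [sum_comm]
  simp only [← mul_sum, sum_psi h2]
  rw [sum_eq_single 0 (fun w _ hw => by
    rw [if_neg fun h => hw (hQ w (LinearMap.congr_fun h)), Nat.cast_zero, mul_zero]) (by simp)]
  simp [psi_zero]

omit [Fintype V] in
theorem exists_sqrt_form [FiniteDimensional F V] (h2 : (2 : F) = 0) {B : LinearMap.BilinForm F V}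
    (hB : B.Nondegenerate) (q : V → F) (h1 : ∀ v w, q (v + w) = q v + q w)
    (h3 : ∀ (c : F) v, q (c • v) = c ^ 2 * q v) : ∃ a, ∀ v, q v = B a v ^ 2 := by
  choose r hr using H28.exists_sq_eq_of_two_eq_zero h2
  have hi : ∀ x y : F, x ^ 2 = y ^ 2 → x = y := fun x y h => sub_eq_zero.1
    (pow_eq_zero_iff two_ne_zero |>.1 (by linear_combination h + (y ^ 2 - x * y) * h2))
  obtain ⟨a, ha⟩ := (B.toDual hB).surjective
    { toFun := fun v => r (q v)
      map_add' := fun v w => hi _ _ (by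
        linear_combination hr (q (v + w)) + h1 v w - hr (q v) - hr (q w) - r (q v) * r (q w) * h2)
      map_smul' := fun c v => hi _ _ (by simp [mul_pow, hr, h3]) }
  exact ⟨a, fun v => by rw [show B a v = r (q v) from LinearMap.congr_fun ha v, hr]⟩

variable [FiniteDimensional F V]

theorem exists_transv (h2 : (2 : F) = 0) (hQ : Nondeg Q) (hp : ∀ v w, polar Q' v w = polar Q v w)
    (hg : gs Q' = gs Q) : ∃ t : V ≃ₗ[F] V, (∀ v, Q (t v) = Q' v) ∧ ∀ x : V ≃ₗ[F] V,
      (∀ v, Q (x v) = Q v) → (∀ v, Q' (x v) = Q' v) → ∀ v, t (x v) = x (t v) := by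
  obtain ⟨a, ha⟩ := exists_sqrt_form h2 (nondeg_iff.1 hQ) (fun v => Q' v - Q v)
    (fun v w => by simp only [Q_add, hp]; ring) fun c v => by simp only [Q_smul]; ring
  simp only [polarBilin_apply_apply, sub_eq_iff_eq_add'] at ha
  have h1 := gs_shift h2 ha
  rw [hg, eq_comm, mul_eq_right₀ (left_ne_zero_of_mul
    (gs_mul_self h2 hQ ▸ Nat.cast_ne_zero.2 Fintype.card_ne_zero))] at h1
  obtain ⟨c, hc⟩ : ∃ c, c ^ 2 * Q a + c = 1 := by
    obtain ⟨b, hb⟩ : ∃ b, b ^ 2 + b + Q a = 0 := by_contra fun h => by simp [psi, h] at h1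
    by_cases h0 : Q a = 0
    · exact ⟨1, by simp [h0]⟩
    · exact ⟨b / Q a, by field_simp; linear_combination hb - Q a * h2⟩
  let t : End F V := 1 + (c • polarBilin Q a).smulRight a
  have ht : ∀ v, t v = v + (c * polar Q a v) • a := fun v => rfl
  have h3 : Function.Involutive t := fun v => by
    simp only [ht, polar_add_right, B_smul_right, B_self, h2, add_assoc, ← add_smul, ← two_mul,
      zero_mul, mul_zero, add_zero, zero_smul]
  refine ⟨.ofInvolutive t h3, fun v => ?_, fun x h4 h5 v => ?_⟩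
  · rw [LinearEquiv.coe_ofInvolutive, ht, Q_add, Q_smul, B_smul_right, polar_comm Q v, ha]
    linear_combination polar Q a v ^ 2 * hc
  · have h6 : ∀ v, polar Q a (x v) = polar Q a v := fun v => sub_eq_zero.1
      (pow_eq_zero_iff two_ne_zero |>.1 (by
        linear_combination h5 v - h4 v + ha v - ha (x v) +
          (polar Q a v ^ 2 - polar Q a (x v) * polar Q a v) * h2))
    have h7 : x a = a := sub_eq_zero.1 (hQ _ fun w => by
      obtain ⟨w, rfl⟩ := x.surjective w
      rw [polar_sub_left, h6, O.map_B ⟨x, h4⟩, sub_self])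
    simp only [LinearEquiv.coe_ofInvolutive, ht, h6, map_add, map_smul, h7]

variable (Q) in
/-- The symplectic group of the polar form. -/
def Sp : Subgroup (V ≃ₗ[F] V) where
  carrier := {g | ∀ v w, polar Q (g v) (g w) = polar Q v w}
  mul_mem' {a b} ha hb v w := (ha _ _).trans (hb v w)
  one_mem' _ _ := rfl
  inv_mem' {a} ha v w := by simpa using (ha (a.symm v) (a.symm w)).symm

variable (Q) in
/-- The inclusion of the orthogonal group in the symplectic group. -/
def incl : O Q →* Sp Q := Subgroup.inclusion fun g hg => O.map_B ⟨g, hg⟩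

theorem incl_inj (h2 : (2 : F) = 0) (hQ : Nondeg Q) :
    Function.Injective (ConjClasses.map (incl Q)) := fun C C' h => by
  obtain ⟨x, rfl⟩ := ConjClasses.mk_surjective C
  obtain ⟨y, rfl⟩ := ConjClasses.mk_surjective C'
  obtain ⟨g, hg⟩ := isConj_iff.1 (ConjClasses.mk_eq_mk_iff_isConj.1 h)
  have h1 : ∀ v, g.1 (x.1 v) = y.1 (g.1 v) := fun v =>
    congrArg (fun k : Sp Q => k.1 v) (mul_inv_eq_iff_eq_mul.1 hg)
  obtain ⟨t, a1, a2⟩ := exists_transv (Q' := Q.comp g.1.toLinearMap) h2 hQ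
    (fun v w => by simpa [polar] using g.2 v w) (gs_comp g.1.toEquiv fun _ => rfl)
  have a3 := a2 x.1 x.2 fun v => by simp [h1, O.map_Q]
  refine ConjClasses.mk_eq_mk_iff_isConj.2 (isConj_iff.2 ⟨⟨g.1 * t⁻¹, fun v => by
    simpa using (a1 (t.symm v)).symm⟩, mul_inv_eq_iff_eq_mul.2 (O.ext fun v => ?_)⟩)
  obtain ⟨v, rfl⟩ := t.surjective v
  simp [O.mul_apply, ← a3, h1]

/-- `x` preserves a non-degenerate quadratic form with Gauss sum `σ`. -/
def Rz (σ : ℤ) (x : End F W) : Prop :=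
  ∃ Q : QuadraticForm F W, Nondeg Q ∧ (∀ v, Q (x v) = Q v) ∧ gs Q = σ

variable [FiniteDimensional F W] {x : End F W} {σ : ℤ}

theorem Rz.transport (h2 : (2 : F) = 0) (h : Rz σ x) (hQ : Nondeg Q)
    (hd : finrank F V = finrank F W) : ∃ (y : V ≃ₗ[F] V) (Q' : QuadraticForm F V),
      Similar (y : End F V) x ∧ (∀ v w, polar Q' v w = polar Q v w) ∧ (∀ v, Q' (y v) = Q' v) ∧
      gs Q' = σ := by
  obtain ⟨Q', a1, a2, rfl⟩ := h
  obtain ⟨c, hc⟩ := H66.exists_equiv_alt _ _ (nondeg_iff.1 a1) (nondeg_iff.1 hQ)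
    (fun v => by simp [B_self, h2]) (fun v => by simp [B_self, h2]) hd
  have a3 := (End.isUnit_iff x).1 (H66.isUnit_of_preserves (B₁ := polarBilin Q') (nondeg_iff.1 a1)
    fun v w => by simp only [polarBilin_apply_apply, polar, ← map_add, a2])
  exact ⟨c ≪≫ₗ .ofBijective x a3 ≪≫ₗ c.symm, Q'.comp c.toLinearMap, ⟨c, by simp⟩,
    fun v w => by simpa [polar] using hc v w, by simp [a2], gs_comp c.toEquiv fun _ => rfl⟩

theorem Rz.exists_O (h2 : (2 : F) = 0) (h : Rz (gs Q) x) (hQ : Nondeg Q)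
    (hd : finrank F V = finrank F W) : ∃ y : O Q, Similar (y.1 : End F V) x := by
  obtain ⟨y, Q', a1, a2, a3, a4⟩ := h.transport h2 hQ hd
  obtain ⟨t, b1, -⟩ := exists_transv h2 hQ a2 a4
  refine ⟨⟨t * y * t⁻¹, fun v => ?_⟩, H65.Similar.trans ⟨t.symm, by simp⟩ a1⟩
  obtain ⟨v, rfl⟩ := t.surjective v
  simp [b1, a3]

theorem Rz.exists_Sp (h2 : (2 : F) = 0) (h : Rz σ x) (hσ : σ ≠ gs Q) (hQ : Nondeg Q)
    (hd : finrank F V = finrank F W) (hx : Function.Surjective (x - 1 : End F W)) :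
    ∃ y : Sp Q, Similar (y.1 : End F V) x ∧ ∀ C, ConjClasses.map (incl Q) C ≠ ConjClasses.mk y := by
  obtain ⟨y, Q', a1, a2, a3, rfl⟩ := h.transport h2 hQ hd
  refine ⟨⟨y, fun v w => by rw [← a2, ← a2]; simp only [polar, ← map_add, a3]⟩, a1, fun C h => hσ ?_⟩
  obtain ⟨z, rfl⟩ := ConjClasses.mk_surjective C
  obtain ⟨g, hg⟩ := isConj_iff.1 (ConjClasses.mk_eq_mk_iff_isConj.1 h.symm)
  have h1 : ∀ v, g.1 (y v) = z.1 (g.1 v) := fun v =>
    congrArg (fun k : Sp Q => k.1 v) (mul_inv_eq_iff_eq_mul.1 hg)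
  refine gs_comp g.1.toEquiv fun v => ?_
  obtain ⟨e, he⟩ := a1
  obtain ⟨v, rfl⟩ : ∃ w, v = y w - w := by
    obtain ⟨w, hw⟩ := hx (e v)
    obtain ⟨w, rfl⟩ := e.surjective w
    exact ⟨w, e.injective (by simpa [← he] using hw.symm)⟩
  rw [Q_sub, a3, a2, ← g.2, LinearEquiv.coe_toEquiv, map_sub, Q_sub, h1, O.map_Q]
  linear_combination (Q (g.1 v) - Q' v) * h2

end H64.Wall2
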