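import Mathlib
import Cfsg.Agent.Lib.Wall2.Gauss

/-!
The number of conjugacy classes of the orthogonal groups in characteristic two.
-/

set_option autoImplicit false

namespace H64.Wall2

open Module Finset Polynomial H65 H12 QuadraticMap
open scoped Classical

variable {F A A' : Type*} [Field F] [AddCommGroup A] [Module F A] [AddCommGroup A'] [Module F A']

/-- The model isometries. -/
def md (M : End F A) : End F (A × A) :=
  (LinearMap.fst F A A + LinearMap.snd F A A).prod
    (LinearMap.snd F A A + M ∘ₗ (LinearMap.fst F A A + LinearMap.snd F A A))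

theorem md_apply (M : End F A) (v : A × A) : md M v = (v.1 + v.2, v.2 + M (v.1 + v.2)) := rfl

theorem md_sq (M : End F A) (v : A × A) :
    (md M - 1) ((md M - 1) v) = M.prodMap M (md M v) := by
  have : ∀ v, (md M - 1) v = (v.2, M (v.1 + v.2)) := fun v => by ext <;> simp [md_apply]
  simp [this, md_apply]

theorem sim_of_md {M : End F A} {M' : End F A'} (h : Similar (md M) (md M')) :
    Similar (M.prodMap M : End F (A × A)) (M'.prodMap M' : End F (A' × A')) := by
  obtain ⟨e, he⟩ := h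
  have h1 : ∀ v, e ((md M - 1) v) = (md M' - 1) (e v) := fun v => by simp [he]
  refine ⟨e, fun v => ?_⟩
  obtain ⟨v, rfl⟩ : ∃ w, v = md M w := ⟨(v.1 - (v.2 - M v.1), v.2 - M v.1), by simp [md_apply]⟩
  rw [← md_sq, h1, h1, md_sq, he]

theorem sim_inv {M P : End F A} {M' P' : End F A'}
    (h : Similar (M.prodMap M : End F (A × A)) (M'.prodMap M' : End F (A' × A'))) (h1 : M * P = 1)
    (h2 : P' * M' = 1) : Similar (P.prodMap P : End F (A × A)) (P'.prodMap P' : End F (A' × A')) := by
  obtain ⟨e, he⟩ := h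
  refine ⟨e, fun v => ?_⟩
  have := congrArg (P'.prodMap P') (he (P.prodMap P v))
  rw [← End.mul_apply, ← End.mul_apply, LinearMap.prodMap_mul, LinearMap.prodMap_mul, h1, h2,
    LinearMap.prodMap_one, LinearMap.prodMap_one] at this
  exact this.symm

theorem md_surj {M : End F A} (h : Function.Surjective M) :
    Function.Surjective (md M - 1 : End F (A × A)) := fun v => by
  obtain ⟨a, ha⟩ := h v.2
  exact ⟨(a - v.1, v.1), by simp [md_apply, ha]⟩

theorem sum_symm {ι : Type*} [Fintype ι] (h2 : (2 : F) = 0) (f : ι → ι → F)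
    (h : ∀ i j, f i j = f j i) : ∑ i, ∑ j, f i j = ∑ i, f i i := by
  rw [← sum_product', ← sum_diag _ fun p : ι × ι => f p.1 p.2, univ_product_univ, ← sum_filter_add_sum_filter_not univ
    fun p : ι × ι => p.1 = p.2, sum_involution (s := {p : ι × ι | ¬ p.1 = p.2}) (fun p _ => p.swap)
    (fun p _ => by rw [h, Prod.fst_swap, Prod.snd_swap]; linear_combination f p.2 p.1 * h2)
    (fun p hp _ e => (mem_filter.1 hp).2 (congrArg Prod.snd e))
    (fun p hp => by simpa [eq_comm] using hp) (fun _ _ => rfl), add_zero]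
  exact sum_congr (by ext; simp) fun _ _ => rfl

variable [FiniteDimensional F A] {H : LinearMap.BilinForm F A}

theorem trace_eq (h2 : (2 : F) = 0) (hH : H.Nondegenerate) (hs : ∀ a b, H a b = H b a) {P : End F A}
    (hP : ∀ a b, H (P a) b = H a (P b)) {s : A} (h : ∀ a, H a (P a) = H s a ^ 2) :
    LinearMap.trace F A P = H s s := by
  let b := Module.finBasis F A
  let d := H.dualBasis hH b
  have h1 : ∀ v w, H v w = ∑ j, H v (b j) * H w (d j) := fun v w => by
    conv_lhs => rw [← d.sum_repr v]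
    simp [d, hs w]
  have h3 : ∀ v i, b.repr v i = H v (d i) := fun v i => by
    conv_rhs => rw [← b.sum_repr v]
    simp only [map_sum, map_smul, LinearMap.sum_apply, LinearMap.smul_apply, d, hs (b _),
      LinearMap.BilinForm.apply_dualBasis_left]
    simp
  rw [LinearMap.trace_eq_matrix_trace F b, Matrix.trace, h1]
  simp only [Matrix.diag, LinearMap.toMatrix_apply, h3]
  rw [sum_congr rfl fun i _ => h1 _ (d i), sum_congr rfl fun i _ => congrArg _ (h1 s (d i))]
  simp only [mul_sum]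
  rw [sum_symm h2 _ fun i j => by rw [hP, hs (b i), hs (d i)],
    sum_symm h2 _ fun i j => by rw [hs (d i) (d j), h1]; ring]
  exact sum_congr rfl fun i _ => by rw [hP, h]; ring

variable [Finite F] [Fintype A]

theorem rz_md (h2 : (2 : F) = 0) (hH : H.Nondegenerate) (hs : ∀ a b, H a b = H b a) {M : End F A}
    (hM : ∀ a b, H (M a) b = H a (M b)) {s : A} (h : ∀ a, H a (M a) = H s (M a) ^ 2) :
    Rz (psi (H s s) * Fintype.card A) (md M) := by
  obtain ⟨κ, hκ⟩ := exists_sqrt_form h2 hH (fun b => H b b) (fun v w => by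
    simp only [map_add, LinearMap.add_apply, hs w v]; linear_combination H v w * h2)
    fun c v => by simp; ring
  let Q₀ : QuadraticForm F (A × A) :=
    LinearMap.BilinMap.toQuadraticMap (H.compl₁₂ (LinearMap.fst F A A) (LinearMap.snd F A A))
  let l := H s ∘ₗ LinearMap.snd F A A + H κ ∘ₗ LinearMap.fst F A A
  have h0 : ∀ v, Q₀ v = H v.1 v.2 := fun _ => rfl
  have h1 : ∀ v, (Q₀ + linMulLin l l) v = H v.1 v.2 + (H s v.2 + H κ v.1) ^ 2 := fun v => by
    simp [h0, l, _root_.sq, -mul_eq_mul_left_iff]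
    ring
  refine ⟨Q₀ + linMulLin l l, fun v hv => ?_, fun v => ?_, ?_⟩
  · have h3 : ∀ w : A × A, H v.1 w.2 + H w.1 v.2 = 0 := fun w => by
      have := hv w
      simp only [polar, h1, Prod.fst_add, Prod.snd_add, map_add, LinearMap.add_apply] at this
      linear_combination this - (H s v.2 + H κ v.1) * (H s w.2 + H κ w.1) * h2
    exact Prod.ext (hH.1 _ fun w => by simpa using h3 (0, w))
      (hH.2 _ fun w => by simpa using h3 (w, 0))
  · have a1 := h (v.1 + v.2)
    have a2 := hκ v.2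
    rw [h1, h1, md_apply]
    generalize M (v.1 + v.2) = u at *
    simp only [map_add, LinearMap.add_apply] at *
    linear_combination a1 + a2 + (H s u ^ 2 + H κ v.2 ^ 2 + H s u * H κ v.2 +
      (H s u + H κ v.2) * (H s v.2 + H κ v.1)) * h2
  · rw [gs_shift h2 (Q := Q₀) (a := (s, κ)) fun v => by
      simp only [h1, polar, h0, Prod.fst_add, Prod.snd_add, map_add, LinearMap.add_apply, hs κ]
      ring, h0, hκ s, psi_sq h2, hs, gs, Fintype.sum_prod_type]
    simp only [h0, sum_psi h2]
    rw [sum_eq_single 0 (fun w _ hw => by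
      rw [if_neg fun h => hw (hH.1 w (LinearMap.congr_fun h)), Nat.cast_zero]) (by simp)]
    simp

omit [Finite F] in
theorem exists_frob {g : F[X]} (hg : g.Monic) {n : ℕ} (hn : g.natDegree = n + 1) :
    ∃ μ : AdjoinRoot g →ₗ[F] F, (∀ a, (∀ b, μ (a * b) = 0) → a = 0) ∧
      μ (AdjoinRoot.mk g g.divX) = 1 := by
  have key : ∀ p : F[X], p.natDegree ≤ n → (lcoeff F n ∘ₗ AdjoinRoot.modByMonicHom hg)
      (AdjoinRoot.mk g p) = p.coeff n := fun p hp => by
    simp [(modByMonic_eq_self_iff hg).2 (degree_lt_degree (show p.natDegree < _ by omega))]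
  refine ⟨lcoeff F n ∘ₗ AdjoinRoot.modByMonicHom hg, fun a ha => ?_, ?_⟩
  · rw [← AdjoinRoot.mk_leftInverse hg a] at ha ⊢
    obtain ⟨p, rfl⟩ := AdjoinRoot.mk_surjective a
    have h1 := natDegree_modByMonic_lt p hg (by rintro rfl; simp at hn)
    rw [AdjoinRoot.modByMonicHom_mk] at ha ⊢
    generalize p %ₘ g = r at *
    obtain ⟨k, hk⟩ : ∃ k, n = r.natDegree + k := ⟨n - r.natDegree, by omega⟩
    have := ha (AdjoinRoot.mk g (X ^ k))
    rw [← map_mul, key _ (natDegree_mul_le.trans (by simp [hk])), hk, coeff_mul_X_pow,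
      coeff_natDegree, leadingCoeff_eq_zero] at this
    simp [this]
  · rw [key _ (by rw [natDegree_divX_eq_natDegree_tsub_one]; omega), coeff_divX, ← hn,
      hg.coeff_natDegree]

theorem rz_cyc (h2 : (2 : F) = 0) {g : F[X]} (hg : g.Monic) {n : ℕ} (hn : g.natDegree = n + 1)
    [Fintype (AdjoinRoot g)] : (g.coeff 0 ≠ 0 → ∃ M : End F (AdjoinRoot g), M * cyc g = 1 ∧
      cyc g * M = 1 ∧ Rz (psi (g.coeff n) * Fintype.card (AdjoinRoot g)) (md M)) ∧
    (g.coeff 0 = 0 → g.coeff 1 ≠ 0 → ∀ c : F, Rz (psi c * Fintype.card (AdjoinRoot g)) (md (cyc g))) := by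
  have := hg.finite_adjoinRoot
  obtain ⟨μ, h1, h3⟩ := exists_frob hg hn
  let H : LinearMap.BilinForm F (AdjoinRoot g) := (LinearMap.mul F _).compr₂ μ
  have hH : ∀ a b, H a b = μ (a * b) := fun _ _ => rfl
  have hs : ∀ a b, H a b = H b a := fun a b => by rw [hH, hH, mul_comm]
  have hn' : H.Nondegenerate := ⟨h1, fun a h => h1 a fun b => (hs a b).trans (h b)⟩
  have hmk : ∀ p, AdjoinRoot.mk g p = AdjoinRoot.root g * AdjoinRoot.mk g p.divX + p.coeff 0 • 1 :=
    fun p => by
      conv_lhs => rw [← X_mul_divX_add p]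
      rw [map_add, map_mul, AdjoinRoot.mk_X, AdjoinRoot.mk_C, ← AdjoinRoot.algebraMap_eq,
        Algebra.algebraMap_eq_smul_one]
  have h4 := (hmk g).symm.trans AdjoinRoot.mk_self
  have h6 := hmk g.divX
  generalize AdjoinRoot.mk g g.divX = d at *
  obtain ⟨s, h5⟩ := exists_sqrt_form h2 hn' (fun a => H a (cyc g a)) (fun v w => by
    simp only [map_add, LinearMap.add_apply, hH, cyc_apply, mul_left_comm v, mul_left_comm w, mul_comm w v]
    linear_combination μ (AdjoinRoot.root g * (v * w)) * h2) fun c v => by simp; ring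
  refine ⟨fun h0 => ?_, fun h0 h0' c => ?_⟩
  · let r := -(g.coeff 0)⁻¹ • d
    have a1 : AdjoinRoot.root g * r = 1 := by
      rw [mul_smul_comm, eq_neg_of_add_eq_zero_left h4, neg_smul_neg, inv_smul_smul₀ h0]
    refine ⟨LinearMap.mul F _ r, LinearMap.ext fun a => by
      simp [cyc_apply, mul_left_comm r, ← mul_assoc (AdjoinRoot.root g), a1],
      LinearMap.ext fun a => by simp [cyc_apply, ← mul_assoc, a1], ?_⟩
    have a2 := trace_eq h2 hn' hs (fun a b => by simp only [hH, cyc_apply]; ring_nf) h5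
    rw [LinearMap.trace_eq_matrix_trace F (Module.finBasis F _), Matrix.trace_eq_neg_charpoly_nextCoeff,
      LinearMap.charpoly_toMatrix, charpoly_cyc hg, nextCoeff_of_natDegree_pos (by omega), hn,
      Nat.add_sub_cancel] at a2
    rw [show g.coeff n = H s s by linear_combination a2 + g.coeff n * h2]
    refine rz_md h2 hn' hs (fun a b => by simp only [hH, LinearMap.mul_apply']; ring_nf) fun a => ?_
    rw [← h5, cyc_apply, LinearMap.mul_apply', ← mul_assoc, a1, one_mul, hs]
  · rw [h0, zero_smul, add_zero] at h4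
    have a1 : ∀ p, AdjoinRoot.mk g p * d = p.coeff 0 • d := fun p => by
      rw [hmk, add_mul, mul_right_comm, h4]; simp
    have a2 : d * d = g.coeff 1 • d := by
      conv_lhs => lhs; rw [h6]
      rw [add_mul, mul_right_comm, h4]; simp
    obtain ⟨p, rfl⟩ := AdjoinRoot.mk_surjective s
    have a3 := h5 d
    rw [cyc_apply, h4, map_zero, hH, a1, map_smul, h3, smul_eq_mul, mul_one, eq_comm,
      pow_eq_zero_iff two_ne_zero] at a3
    rw [hmk, a3, zero_smul, add_zero] at h5
    generalize AdjoinRoot.mk g p.divX = s at h5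
    obtain ⟨t, ht⟩ := H28.exists_sq_eq_of_two_eq_zero h2 ((c - H s s) / g.coeff 1)
    rw [show c = H (s + t • d) (s + t • d) by
      simp only [map_add, map_smul, LinearMap.add_apply, LinearMap.smul_apply, smul_eq_mul, hs d s,
        hH d d, a2, h3]
      rw [eq_div_iff h0'] at ht
      linear_combination -ht - t * H s d * h2]
    refine rz_md h2 hn' hs (fun a b => by simp only [hH, cyc_apply]; ring_nf) fun a => ?_
    rw [h5, hH, hH, cyc_apply, add_mul, smul_mul_assoc, ← mul_assoc d, mul_comm d, h4, mul_left_comm,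
      mul_assoc]
    simp

omit [Finite F] in
theorem card_ne [Fintype F] (k : ℕ) :
    #{c : Fin (k + 1) → F | c 0 ≠ 0} + Fintype.card F ^ k = Fintype.card F ^ (k + 1) := by
  have := Fintype.card_filter_piFinset_const_eq_of_mem (univ : Finset F) (0 : Fin (k + 1)) (mem_univ 0)
  rw [Fintype.piFinset_univ, card_univ, Fintype.card_fin, Nat.add_sub_cancel] at this
  rw [← this, add_comm, card_filter_add_card_filter_not]
  simp

omit [Finite F] in
theorem card_psi [Fintype F] (h2 : (2 : F) = 0) (k : ℕ) (e : F) :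
    #{c : Fin (k + 2) → F | c 0 ≠ 0} ≤ 2 * #{c : Fin (k + 2) → F | c 0 ≠ 0 ∧
      psi (c (Fin.last _)) = psi e} := by
  obtain ⟨α, hα⟩ := exists_psi h2
  rw [← card_filter_add_card_filter_not fun c : Fin (k + 2) → F => psi (c (Fin.last _)) = psi e,
    filter_filter, two_mul, add_le_add_iff_left]
  refine card_le_card_of_injOn (· + Pi.single (Fin.last _) α) (fun c hc => ?_)
    (add_left_injective _).injOn
  simp only [coe_filter, mem_filter, mem_univ, true_and, Set.mem_setOf_eq, Pi.add_apply,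
    Pi.single_eq_same, psi_add h2, hα, Pi.single_eq_of_ne (Fin.last_pos (n := k)).ne, add_zero] at hc ⊢
  refine ⟨hc.1, ?_⟩
  have := hc.2
  unfold psi at this ⊢
  split_ifs at this ⊢ <;> simp_all

omit [Finite F] in
theorem card_O {V : Type*} [AddCommGroup V] [Module F V] [FiniteDimensional F V] [Fintype F]
    {Q : QuadraticForm F V} (h2 : (2 : F) = 0) (hQ : Nondeg Q) {n : ℕ} (hn : 2 ≤ n)
    (hV : finrank F V = 2 * n) : Fintype.card F ^ n ≤ 2 * Nat.card (ConjClasses (O Q)) ∧
      Nat.card (ConjClasses (O Q)) ≤ 15 * Fintype.card F ^ n := by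
  obtain ⟨m, rfl⟩ : ∃ m, n = m + 2 := ⟨n - 2, by omega⟩
  have : Finite V := Module.finite_of_finite F
  have := Fintype.ofFinite V
  have := H66.finite_end (F := F) (V := V)
  have : Finite (Sp Q) := Finite.of_injective (fun g : Sp Q => (g.1 : End F V)) fun _ _ h =>
    Subtype.ext (LinearEquiv.toLinearMap_injective h)
  have := H64.Wall.finite_O (Q := Q)
  have : Finite (ConjClasses (Sp Q)) := Quotient.finite _
  have : Finite (ConjClasses (O Q)) := Quotient.finite _
  obtain ⟨α, hα⟩ := exists_psi h2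
  obtain ⟨e, he⟩ : ∃ e : F, gs Q = psi e * (Fintype.card F ^ (m + 2) : ℕ) := by
    have := gs_mul_self h2 hQ
    rw [Module.card_eq_pow_finrank (K := F), hV, two_mul, pow_add, Nat.cast_mul,
      mul_self_eq_mul_self_iff] at this
    exact this.elim (fun h => ⟨0, by rw [h, psi_zero, one_mul]⟩) fun h => ⟨α, by rw [h, hα]; simp⟩
  let g : (Fin (m + 2) → F) → F[X] := fun c => X ^ (m + 2) + ofFn (m + 2) c
  have g1 : ∀ c, (g c).Monic := fun c => monic_X_pow_add (ofFn_degree_lt c)
  have g2 : ∀ c, (g c).natDegree = m + 1 + 1 := fun c => by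
    rw [natDegree_add_eq_left_of_degree_lt (by simpa using ofFn_degree_lt c), natDegree_X_pow]
  have g3 : ∀ c (i : Fin (m + 2)), (g c).coeff i = c i := fun c i => by
    simp [g, coeff_X_pow, i.2.ne]
  have g4 := fun c => (g1 c).finite_adjoinRoot
  have g5 : ∀ c, Fintype (AdjoinRoot (g c)) := fun c =>
    have : Finite (AdjoinRoot (g c)) := Module.finite_of_finite F
    Fintype.ofFinite _
  have g6 : ∀ c, Fintype.card (AdjoinRoot (g c)) = Fintype.card F ^ (m + 2) := fun c => by
    rw [Module.card_eq_pow_finrank (K := F), finrank_adjoinRoot, g2]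
  have g7 : ∀ c, finrank F V = finrank F (AdjoinRoot (g c) × AdjoinRoot (g c)) := fun c => by
    rw [finrank_prod, finrank_adjoinRoot, g2, hV, two_mul]
  have : ∀ c, ∃ M : End F (AdjoinRoot (g c)), (c 0 ≠ 0 → M * cyc (g c) = 1 ∧ cyc (g c) * M = 1 ∧
      Rz (psi (c (Fin.last _)) * (Fintype.card F ^ (m + 2) : ℕ)) (md M)) ∧
      (c 0 = 0 → M = cyc (g c) ∧ (c 1 ≠ 0 → Rz (gs Q) (md M))) := fun c => by
    obtain ⟨a1, a2⟩ := rz_cyc h2 (g1 c) (g2 c)
    rw [g6, show (g c).coeff 0 = c 0 from g3 c 0] at a1 a2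
    by_cases h : c 0 = 0
    · exact ⟨_, fun h' => absurd h h', fun _ => ⟨rfl, fun h' => he ▸ a2 h (g3 c 1 ▸ h') e⟩⟩
    · exact (a1 h).imp fun M hM => ⟨fun _ => g3 c (Fin.last _) ▸ hM, fun h' => absurd h' h⟩
  choose M M1 M2 using this
  have h1 : ∀ c c', Similar (md (M c)) (md (M c')) → c = c' := fun c c' h => by
    have a1 : ∀ c c', c 0 = 0 → c' 0 ≠ 0 → ¬ Similar (md (M c)) (md (M c')) := fun c c' b1 b2 h => by
      have := (sim_of_md h).det_eq
      rw [LinearMap.det_prodMap, LinearMap.det_prodMap, (M2 c b1).1,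
        LinearMap.det_eq_sign_charpoly_coeff, charpoly_cyc (g1 c),
        show (g c).coeff 0 = c 0 from g3 c 0, b1, mul_zero, mul_zero, eq_comm, mul_self_eq_zero] at this
      simpa [this] using congrArg LinearMap.det (M1 c' b2).1
    have a2 : Similar ((cyc (g c)).prodMap (cyc (g c)) : End F _)
        ((cyc (g c')).prodMap (cyc (g c')) : End F _) := by
      by_cases b1 : c 0 = 0 <;> by_cases b2 : c' 0 = 0
      · exact (M2 c b1).1 ▸ (M2 c' b2).1 ▸ sim_of_md h
      · exact absurd h (a1 c c' b1 b2)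
      · exact absurd h.symm (a1 c' c b2 b1)
      exact sim_inv (sim_of_md h) (M1 c b1).1 (M1 c' b2).2.1
    have a3 := a2.charpoly_eq
    rw [LinearMap.charpoly_prodMap, LinearMap.charpoly_prodMap, charpoly_cyc (g1 c),
      charpoly_cyc (g1 c'), mul_self_eq_mul_self_iff] at a3
    refine funext fun i => ?_
    rw [← g3 c, ← g3 c']
    rcases a3 with h | h <;> rw [h]
    rw [coeff_neg]
    linear_combination -(g c').coeff i * h2
  have h3 : ∀ {G : Subgroup (V ≃ₗ[F] V)} {x y : G} {c c'}, Similar (x.1 : End F V) (md (M c)) →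
      Similar (y.1 : End F V) (md (M c')) → ConjClasses.mk x = ConjClasses.mk y → c = c' :=
    fun {G x y c c'} a1 a2 h => by
      obtain ⟨k, rfl⟩ := isConj_iff.1 (ConjClasses.mk_eq_mk_iff_isConj.1 h)
      exact h1 c c' (a1.symm.trans (H65.Similar.trans ⟨k.1, fun v => by simp⟩ a2))
  have hq : 2 ≤ Fintype.card F := Fintype.one_lt_card
  have b1 := card_ne (F := F) m
  have b2 : #{c : Fin (m + 2) → F | c 0 ≠ 0} + _ = Fintype.card F ^ (m + 2) := card_ne (m + 1)
  refine ⟨?_, ?_⟩
  · let S : Finset (Fin (m + 2) → F) := ({c | c 0 ≠ 0 ∧ psi (c (Fin.last _)) = psi e} :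
      Finset (Fin (m + 2) → F)) ∪
      ({c : Fin (m + 1) → F | c 0 ≠ 0} : Finset _).map ⟨Fin.cons 0, Fin.cons_right_injective _⟩
    have : ∀ c : S, ∃ y : O Q, Similar (y.1 : End F V) (md (M c)) := fun ⟨c, hc⟩ => by
      refine Rz.exists_O h2 ?_ hQ (g7 c)
      rcases mem_union.1 hc with hc | hc
      · obtain ⟨a1, a2⟩ := (mem_filter.1 hc).2
        exact he ▸ a2 ▸ (M1 c a1).2.2
      · obtain ⟨c, hc', rfl⟩ := mem_map.1 hc
        exact (M2 _ rfl).2 (mem_filter.1 hc').2
    choose y hy using this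
    have a1 := Nat.card_le_card_of_injective (fun c => ConjClasses.mk (y c)) fun c c' h =>
      Subtype.ext (h3 (hy c) (hy c') h)
    rw [Nat.card_eq_finsetCard, card_union_of_disjoint (disjoint_left.2 fun c hc hc' => by
      obtain ⟨c, -, rfl⟩ := mem_map.1 hc'
      exact (mem_filter.1 hc).2.1 rfl), card_map] at a1
    have a2 := card_psi h2 m e
    have a3 : 2 * Fintype.card F ^ m ≤ Fintype.card F ^ (m + 1) := by rw [pow_succ']; gcongr
    omega
  · let S : Finset (Fin (m + 2) → F) := {c | c 0 ≠ 0 ∧ psi (c (Fin.last _)) = psi (e + α)}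
    have : ∀ c : S, ∃ y : Sp Q, Similar (y.1 : End F V) (md (M c)) ∧
        ∀ C, ConjClasses.map (incl Q) C ≠ ConjClasses.mk y := fun ⟨c, hc⟩ => by
      obtain ⟨a1, a2⟩ := (mem_filter.1 hc).2
      refine (M1 c a1).2.2.exists_Sp h2 (fun h => ?_) hQ (g7 c)
        (md_surj fun v => ⟨_, LinearMap.congr_fun (M1 c a1).1 v⟩)
      rw [he, a2, psi_add h2, hα, mul_left_inj' (by positivity)] at h
      unfold psi at h
      split_ifs at h <;> simp at h
    choose y hy hy' using this
    have a1 := Nat.card_le_card_of_injective (Sum.elim (ConjClasses.map (incl Q))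
      fun c => ConjClasses.mk (y c)) ((incl_inj h2 hQ).sumElim (fun c c' h =>
        Subtype.ext (h3 (hy c) (hy c') h)) fun C c => hy' c C)
    rw [Nat.card_sum, Nat.card_eq_finsetCard] at a1
    have a2 := card_psi h2 m (e + α)
    have a3 : 2 * Fintype.card F ^ (m + 1) ≤ Fintype.card F ^ (m + 2) := by
      rw [pow_succ' _ (m + 1)]; gcongr
    have a4 := card_le h2 (nondeg_iff.1 hQ) (fun v => by simp [h2]) (G := Sp Q)
      ⟨⟨fun g => g.1, rfl⟩, fun _ _ => rfl⟩ (fun _ _ h => Subtype.ext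
        (LinearEquiv.toLinearMap_injective h)) (fun g => g.2) (fun f hf => ⟨⟨.ofBijective f
        ((End.isUnit_iff f).1 (H66.isUnit_of_preserves (nondeg_iff.1 hQ) hf)), hf⟩, rfl⟩) hV
    simp only [S] at a1
    omega

theorem card_iso {F : Type*} [Field F] [Fintype F] (h : Even (Fintype.card F)) {ι : Type} [Fintype ι]
    [DecidableEq ι] {Q : QuadraticForm F (ι → F)} (hQ : Nondeg Q) {n : ℕ} (hn : 2 ≤ n)
    (hV : finrank F (ι → F) = 2 * n) {q : (ι → F) → F} (h' : ∀ v, Q v = q v) :
    Fintype.card F ^ n ≤ 2 * Nat.card (ConjClasses (Cfsg.isometryGroup F q)) ∧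
      Nat.card (ConjClasses (Cfsg.isometryGroup F q)) ≤ 15 * Fintype.card F ^ n := by
  rw [H64.Wall.card_classes_congr (isoEquiv Q h')]
  exact card_O (two_eq_of_even h) hQ hn hV

end H64.Wall2
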